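import Cfsg.Agent.Apw.Defs
import Cfsg.Agent.Local.ProdCard
import Cfsg.Agent.Solv.CardModEq

/-! Dihedral groups acting on elementary abelian 2-groups. -/

set_option autoImplicit false

namespace Cfsg.Lib.Apw.CC

open Subgroup Cfsg.Lib.Solv

/-- the fixed points -/
abbrev Fx {M : Type*} [Group M] (w : MulAut M) : Subgroup M := w.toMonoidHom.eqLocus (MonoidHom.id M)

theorem card_mul_le {G : Type*} [Group G] [Finite G] {A B N D : Subgroup G} (hA : A ≤ N) (hB : B ≤ N)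
    (h : A ⊓ B ≤ D) : Nat.card A * Nat.card B ≤ Nat.card N * Nat.card D :=
  (Local.CD.card_mul_le_card_sup_mul_card_inf A B).trans
    (Nat.mul_le_mul (card_le_of_le (sup_le hA hB)) (card_le_of_le h))

theorem abs1 {M : Type*} [CommGroup M] [Finite M] (hs : ∀ u : M, u * u = 1) {t w : MulAut M} (ht : t * t = 1)
    (htw : t * w * t⁻¹ = w⁻¹) (hw : Odd (orderOf w)) : ∃ A : Subgroup M,
      Nat.card A ^ 2 = Nat.card M * Nat.card (Fx w) ∧ ∀ u, u ∈ A ↔ u * t u ∈ Fx w := by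
  let f : M →* M := MonoidHom.id M * t.toMonoidHom
  have hf : ∀ u, f u = u * t u := fun _ => rfl
  have tt : ∀ u, t (t u) = u := fun u => congrArg (fun g : MulAut M => g u) ht
  have tw : ∀ u, t (w u) = w⁻¹ (t u) := fun u => by rw [← htw]; simp
  have hD : ∀ u, u ∈ Fx w ↔ w u = u := fun _ => Iff.rfl
  have hD' : ∀ u ∈ Fx w, w⁻¹ u = u := fun u hu => by rw [MulAut.inv_apply, MulEquiv.symm_apply_eq, (hD u).1 hu]
  have tD : ∀ u ∈ Fx w, t u ∈ Fx w := fun u hu => (hD _).2 (by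
    have := tw u
    rw [(hD u).1 hu, MulAut.inv_apply, eq_comm, MulEquiv.symm_apply_eq] at this
    exact this.symm)
  let A := (Fx w).comap f
  have DA : Fx w ≤ A := fun u hu => mul_mem hu (tD u hu)
  refine ⟨A, le_antisymm ?_ ?_, fun _ => Iff.rfl⟩
  · have := card_mul_le (A := A) (B := A.map w.toMonoidHom) (N := ⊤) (D := Fx w) le_top le_top ?_
    · rwa [card_map_of_injective w.injective, card_top, ← pow_two] at this
    rintro _ ⟨h1, u, h2, rfl⟩
    change w u * t (w u) ∈ Fx w at h1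
    change u * t u ∈ Fx w at h2
    change w (w u) = w u
    have e1 : t u = u * (u * t u) := by rw [← mul_assoc, hs, one_mul]
    generalize u * t u = d at h2 e1
    rw [tw, e1, map_mul, hD' d h2, ← mul_assoc, mul_mem_cancel_right h2] at h1
    have e2 : w (w u) = u * (w u * w⁻¹ u) := by
      rw [← (hD _).1 h1, map_mul, MulAut.apply_inv_self, mul_comm _ u, ← mul_assoc, hs, one_mul]
    generalize w u * w⁻¹ u = d at h1 e2
    have e3 : (w ^ 4) u = u := by
      rw [show w ^ 4 = w * w * w * w by simp [pow_succ]]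
      simp only [MulAut.mul_apply, e2, map_mul, (hD d).1 h1, mul_assoc, hs, mul_one]
    obtain ⟨n, hn⟩ : w ∈ Submonoid.powers (w ^ 4) := mem_powers_iff_mem_zpowers.2 (mem_zpowers_pow_iff.2
      (Nat.Coprime.pow_left 2 (Nat.coprime_two_left.2 hw)))
    have e4 : ∀ n : ℕ, ((w ^ 4) ^ n) u = u := fun n => by
      induction n with
      | zero => rfl
      | succ n ih => rw [pow_succ, MulAut.mul_apply, e3, ih]
    rw [show w u = u from hn ▸ e4 n]
    exact hn ▸ e4 n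
  · have h1 : A.index ≤ (Fx w).relIndex A := by
      rw [index_comap]
      refine relIndex_le_of_le_right ?_ index_ne_zero_of_finite
      rintro _ ⟨u, rfl⟩
      change f (f u) ∈ Fx w
      rw [hf, hf, map_mul, tt, mul_comm (t u), hs]
      exact one_mem _
    have h2 : (Fx w).relIndex A * Nat.card (Fx w) = Nat.card A := by
      rw [relIndex, ← card_subgroupOf_of_le DA, index_mul_card]
    rw [← A.card_mul_index, pow_two, mul_assoc]
    exact Nat.mul_le_mul_left _ (h2 ▸ Nat.mul_le_mul_right _ h1)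

variable {G : Type*} [Group G] [Finite G] {N : Subgroup G}

omit [Finite G] in
theorem card_fx {g : G} (hg : g ∈ normalizer (N : Set G)) :
    Nat.card (Fx (N.normalizerMonoidHom ⟨g, hg⟩)) = Nat.card (N ⊓ C1 g : Subgroup G) := by
  rw [← card_subgroupOf_of_le (inf_le_left : N ⊓ C1 g ≤ N)]
  congr 2
  ext u
  rw [mem_subgroupOf, mem_inf, and_iff_right u.2, mem_C1, eq_comm, ← mul_inv_eq_iff_eq_mul]
  exact Subtype.ext_iff

theorem mod1 (hN : ∀ q ∈ N, q * q = 1) {t w : G} (h1 : t ∈ normalizer (N : Set G)) (h2 : w ∈ normalizer (N : Set G))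
    (ht : t * t = 1) (htw : t * w * t⁻¹ = w⁻¹) (hw : Odd (orderOf w)) : ∃ A ≤ N,
      Nat.card A ^ 2 = Nat.card N * Nat.card (N ⊓ C1 w : Subgroup G) ∧
      ∀ u ∈ N, u ∈ A ↔ u * (t * u * t⁻¹) ∈ C1 w := by
  let _ : CommGroup N := { (inferInstance : Group N) with
    mul_comm := fun a b => Subtype.ext (comm_of_sq hN a.2 b.2) }
  obtain ⟨A, a1, a2⟩ := abs1 (M := N) (fun u => Subtype.ext (hN u u.2)) (t := N.normalizerMonoidHom ⟨t, h1⟩)
    (w := N.normalizerMonoidHom ⟨w, h2⟩) (by rw [← map_mul, ← map_one N.normalizerMonoidHom]; exact congrArg _ (Subtype.ext ht))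
    (by rw [← map_inv, ← map_inv, ← map_mul, ← map_mul]; exact congrArg _ (Subtype.ext htw))
    (Odd.of_dvd_nat hw ((orderOf_map_dvd _ _).trans (by rw [← orderOf_coe])))
  refine ⟨A.map N.subtype, map_subtype_le A, by rw [card_map_of_injective N.subtype_injective, a1, card_fx],
    fun u hu => ?_⟩
  rw [show u = N.subtype ⟨u, hu⟩ from rfl, mem_map_iff_mem N.subtype_injective, a2, mem_C1, eq_comm,
    ← mul_inv_eq_iff_eq_mul]
  exact Subtype.ext_iff

theorem modEq {p : ℕ} (hp : p.Prime) {w : G} (hw : orderOf w = p) (h : w ∈ normalizer (N : Set G)) :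
    Nat.card N ≡ Nat.card (N ⊓ C1 w : Subgroup G) [MOD p] := by
  have := Fact.mk hp
  have := card_modEq_card_inf_centralizer (IsPGroup.of_card (n := 1) (G := zpowers w)
    (by rw [Nat.card_zpowers, hw, pow_one])) (zpowers_le.2 h)
  rwa [zpowers_eq_closure, centralizer_closure] at this

theorem mod4 {x σ : G} {V : Subgroup G} (h : CI x σ V) (hN : ∀ q ∈ N, q * q = 1) (h1 : x ∈ normalizer (N : Set G))
    (h2 : σ ∈ normalizer (N : Set G)) :
    Nat.card (N ⊓ C1 σ : Subgroup G) ^ 2 = Nat.card N * Nat.card (N ⊓ V : Subgroup G) := by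
  obtain ⟨A, a0, a1, a2⟩ := mod1 hN h2 h1 h.s2 h.sx (by rw [h.ord]; decide)
  have e : N ⊓ C1 x = N ⊓ V := le_antisymm (fun u hu => ⟨hu.1, h.mem_of_sq (mem_C1.1 hu.2).symm (hN u hu.1)⟩)
    fun u hu => ⟨hu.1, mem_C1.2 (h.comm u hu.2).symm⟩
  rw [← e, ← a1]
  congr 3
  refine le_antisymm (fun u hu => (a2 u hu.1).2 ?_) fun u hu => ⟨a0 hu, ?_⟩
  · rw [← mem_C1.1 hu.2, mul_inv_cancel_right, hN u hu.1]; exact one_mem _
  · have hu' := a0 hu
    have n := fun {g u : G} (hg : g ∈ normalizer (N : Set G)) (hu : u ∈ N) => (mem_normalizer_iff.1 hg u).1 hu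
    have c := fun {a b : G} => comm_of_sq hN (a := a) (b := b)
    obtain ⟨d, hd⟩ : ∃ d, d = u * (σ * u * σ⁻¹) := ⟨_, rfl⟩
    have d1 : d ∈ N := hd ▸ mul_mem hu' (n h2 hu')
    have d2 : d * x = x * d := hd ▸ mem_C1.1 ((a2 u hu').1 hu)
    have e1 : σ * u * σ⁻¹ = u * d := by rw [hd, ← mul_assoc u u, hN u hu', one_mul]
    have u1 := n h1 hu'
    have u2 := n (inv_mem h1) hu'
    have e2 : x * (x * u * x⁻¹) * x⁻¹ = x⁻¹ * u * x⁻¹⁻¹ := by
      rw [show x * (x * u * x⁻¹) * x⁻¹ = x * x * u * (x * x)⁻¹ by group, h.mul_self]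
    have e3 : x * (u * (x * u * x⁻¹) * (x⁻¹ * u * x⁻¹⁻¹)) * x⁻¹ = u * (x * u * x⁻¹) * (x⁻¹ * u * x⁻¹⁻¹) := by
      rw [← conj_mul, ← conj_mul, e2, show x * (x⁻¹ * u * x⁻¹⁻¹) * x⁻¹ = u by group, c (mul_mem u1 u2) hu',
        mul_assoc u (x * u * x⁻¹)]
    have m := mul_mem (mul_mem hu' u1) u2
    have e4 := h.sv _ (h.mem_of_sq (mul_inv_eq_iff_eq_mul.1 e3) (hN _ m))
    rw [← mul_inv_eq_iff_eq_mul, ← conj_mul, ← conj_mul, show σ * (x * u * x⁻¹) * σ⁻¹ =
      (σ * x * σ⁻¹) * (σ * u * σ⁻¹) * (σ * x * σ⁻¹)⁻¹ by group, show σ * (x⁻¹ * u * x⁻¹⁻¹) * σ⁻¹ =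
      (σ * x * σ⁻¹)⁻¹ * (σ * u * σ⁻¹) * (σ * x * σ⁻¹) by group, h.sx, e1, inv_inv,
      show x⁻¹ * (u * d) * x = x⁻¹ * u * (d * x) by group, show x * (u * d) * x⁻¹ = x * u * x⁻¹ * (x * d) * x⁻¹ by group,
      ← d2, mul_assoc _ (d * x), mul_inv_cancel_right] at e4
    rw [inv_inv] at u2
    have e5 : x⁻¹ * u * (d * x) = x⁻¹ * u * x * d := by rw [d2]; group
    rw [e5] at e4
    generalize x * u * x⁻¹ = u' at u1 e4
    generalize x⁻¹ * u * x = u'' at u2 e4
    have e6 : u * d * (u'' * d) * (u' * d) = u * u' * u'' * d := by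
      rw [mul_assoc u d, ← mul_assoc d, c d1 u2, mul_assoc u'', hN d d1, mul_one, ← mul_assoc, mul_assoc u u'',
        c u2 u1, ← mul_assoc]
    rw [e6, mul_eq_left] at e4
    rw [e4, mul_one, mul_inv_eq_iff_eq_mul] at e1
    exact mem_C1.2 e1.symm

end Cfsg.Lib.Apw.CC
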