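import Cfsg.Agent.Apw.Defs
import Cfsg.Agent.Local.SympTwo
import Cfsg.Agent.Solv.CardModEq

/-! The 2-local subgroup `2³.L₃(2)`: the extraspecial group `E` of order 32. -/

set_option autoImplicit false
set_option linter.unusedSectionVars false

namespace Cfsg.Lib.Apw

open Subgroup Cfsg.Lib.Solv Cfsg.Lib.Known Cfsg.Lib.Known.G168 Cfsg.Lib.Local

namespace CA

/-- The conjugate of `a0` under `x0`. -/
def a1 : L7 := x0 * a0 * x0⁻¹

/-- The four-group through `a0` normalised by `x0`. -/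
def U0 : Subgroup L7 where
  carrier := {l | l = 1 ∨ l = a0 ∨ l = a1 ∨ l = a0 * a1}
  mul_mem' := by
    rintro _ _ (rfl | rfl | rfl | rfl) (rfl | rfl | rfl | rfl) <;> rw [Set.mem_ofPred_eq] <;>
      decide +kernel
  one_mem' := .inl rfl
  inv_mem' := by rintro _ (rfl | rfl | rfl | rfl) <;> rw [Set.mem_ofPred_eq] <;> decide +kernel

instance : DecidablePred (· ∈ U0) := fun l =>
  inferInstanceAs (Decidable (l = 1 ∨ l = a0 ∨ l = a1 ∨ l = a0 * a1))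

theorem card_U0 : Nat.card U0 = 4 := (GTab.card_subtype_eq_cnt (· ∈ U0)).trans (by decide +kernel)

theorem U0_sq : ∀ l ∈ U0, l * l = 1 := by decide +kernel

theorem U0_x : ∀ l ∈ U0, x0 * l * x0⁻¹ ∈ U0 := by decide +kernel

theorem U0_s : ∀ l ∈ U0, s0 * l * s0⁻¹ ∈ U0 := by decide +kernel

theorem U0_cent : ∀ l, l * a0 = a0 * l ∧ l * a1 = a1 * l ↔ l ∈ U0 := by decide +kernel

theorem t_ab {K : Subgroup L7} (hx : x0 ∈ K) (hs : s0 ∈ K) {i : ℕ} (hi : i < 7)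
    (h : a0 * y0 ^ i ∈ K) : a0 ∈ K ∨ b0 ∈ K := by
  have k := GTab.clos_sound K [4, 68, (a0 * y0 ^ i).1] (by
    simp only [List.mem_cons, List.not_mem_nil, or_false, forall_eq_or_imp, forall_eq]
    exact ⟨⟨by decide, hx⟩, ⟨by decide, hs⟩, (a0 * y0 ^ i).2, by rwa [GTab.el_val]⟩)
  exact ((by decide +kernel : ∀ i < 7, GTab.bit (tab.clos [4, 68, (a0 * y0 ^ i).1]) a0.1 = true ∨
    GTab.bit (tab.clos [4, 68, (a0 * y0 ^ i).1]) b0.1 = true) i hi).imp (k _) (k _)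

theorem t_max {K : Subgroup L7} (hx : x0 ∈ K) (hs : s0 ∈ K) (ha : a0 ∈ K) (hy : y0 ∉ K) {l : L7}
    (h : l ∈ K) : l ∈ U0 ∨ 3 ∣ orderOf l ∨ 3 ∣ orderOf (l * (x0 * l * x0⁻¹)) := by
  rw [orderOf_eq, orderOf_eq]
  rcases (by decide +kernel : ∀ l : L7, (l ∈ U0 ∨ 3 ∣ ord l ∨ 3 ∣ ord (l * (x0 * l * x0⁻¹))) ∨
    GTab.bit (tab.clos [4, 68, 130, l.1]) y0.1 = true) l with e | e
  · exact e
  · exact absurd (GTab.clos_sound K _ (by
      simp only [List.mem_cons, List.not_mem_nil, or_false, forall_eq_or_imp, forall_eq]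
      exact ⟨⟨by decide, hx⟩, ⟨by decide, hs⟩, ⟨by decide, ha⟩, l.2, by rwa [GTab.el_val]⟩) _ e) hy

theorem t_inv {l : L7} (h : l * l = 1) (h1 : l ≠ 1) : ∃ k, 3 ∣ orderOf (l * (k * l * k⁻¹)) := by
  simp only [orderOf_eq]
  exact (by decide +kernel : ∀ l : L7, l * l = 1 → l ≠ 1 → ∃ k, 3 ∣ ord (l * (k * l * k⁻¹))) l h h1

variable {G : Type*} [Group G]

/-- The elements of `E` fixed by `N` modulo `B`. -/
def fx (E N B : Subgroup G) (hB : E ≤ normalizer (B : Set G)) : Subgroup G where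
  carrier := {e | e ∈ E ∧ ∀ n ∈ N, n * e * n⁻¹ * e⁻¹ ∈ B}
  one_mem' := ⟨one_mem _, fun n _ => by simp⟩
  mul_mem' {a b} ha hb := ⟨mul_mem ha.1 hb.1, fun n hn => by
    convert mul_mem (ha.2 n hn) ((mem_normalizer_iff.1 (hB ha.1) _).1 (hb.2 n hn)) using 1; group⟩
  inv_mem' {a} ha := ⟨inv_mem ha.1, fun n hn => by
    convert (mem_normalizer_iff.1 (hB (inv_mem ha.1)) _).1 (inv_mem (ha.2 n hn)) using 1; group⟩

theorem fx_norm [Finite G] {E N B : Subgroup G} {hB : E ≤ normalizer (B : Set G)} {x : G}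
    (h1 : x ∈ normalizer (E : Set G)) (h2 : x ∈ normalizer (N : Set G))
    (h3 : x ∈ normalizer (B : Set G)) : x ∈ normalizer (fx E N B hB : Set G) :=
  mem_normalizer_fintype fun e he => ⟨(mem_normalizer_iff.1 h1 _).1 he.1, fun n hn => by
    convert (mem_normalizer_iff.1 h3 _).1 (he.2 _ ((mem_normalizer_iff''.1 h2 n).1 hn)) using 1
    group⟩

theorem fx_lt [Finite G] {E N B : Subgroup G} {hB : E ≤ normalizer (B : Set G)}
    (hN : IsPGroup 2 N) (h1 : E ≤ N) (h2 : N ≤ normalizer (E : Set G)) (h3 : ¬ E ≤ B) :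
    ∃ e ∈ fx E N B hB, e ∉ B := by
  have := Fact.mk Nat.prime_two
  obtain ⟨e, he, h4, h5⟩ := PG.exists_not_mem_commutator_mem hN.isNilpotent h1 h2 h3
  refine ⟨e, ⟨he, fun n hn => ?_⟩, h4⟩
  convert B.inv_mem (h5 n hn).1 using 1
  rw [commutatorElement_def]; group

end CA

open CA

variable {G : Type*} [Group G]

/-- The configuration of case A. -/
structure EA (x σ y v : G) (V H Q R : Subgroup G) (φ : G → L7) : Prop
    extends LH x σ y V H Q φ where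
  hc : Nat.card Q = 8
  hy : ∀ q ∈ Q, y * q = q * y → q = 1
  hv : v ∈ V
  hvQ : v ∈ Q
  v1 : v ≠ 1
  hs : S6 x V (C1 v) R

namespace EA

variable [Finite G] {x σ y v : G} {V H Q R : Subgroup G} {φ : G → L7}
  (h : EA x σ y v V H Q R φ)
include h

theorem ov : orderOf v = 2 := ord_two (h.sq v h.hv) h.v1

theorem memZ {w : G} : w ∈ zpowers v ↔ w = 1 ∨ w = v := mem_zpowers_iff_of_orderOf_two h.ov

theorem xM : x ∈ C1 v := mem_C1.2 (h.comm v h.hv)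

theorem sM : σ ∈ C1 v := mem_C1.2 (h.sv v h.hv)

theorem QM : Q ≤ C1 v := fun _ hq => mem_C1.2 (comm_of_sq h.qsq hq h.hvQ)

theorem normZ : C1 v ≤ normalizer (zpowers v : Set G) := fun g hg =>
  mem_normalizer_fintype fun z hz => by
    rcases h.memZ.1 hz with rfl | rfl
    · simp
    · rw [mem_C1.1 hg, mul_inv_cancel_right]; exact hz

theorem orbit {q : G} (hq : q ∈ Q) (h1 : q ≠ 1) : ∃ i < 7, y ^ i * v * (y ^ i)⁻¹ = q := by
  classical
  have := Fintype.ofFinite Q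
  have k : ∀ i j, i < j → j < 7 → y ^ i * v * (y ^ i)⁻¹ ≠ y ^ j * v * (y ^ j)⁻¹ := fun i j a b e => by
    obtain ⟨k, rfl⟩ := Nat.exists_eq_add_of_lt a
    have h2 : y ^ (k + 1) ∈ C1 v := mem_C1.2 (by
      calc _ = (y ^ i)⁻¹ * (y ^ (i + k + 1) * v * (y ^ (i + k + 1))⁻¹) * y ^ (i + k + 1) := by group
        _ = _ := by rw [← e]; group)
    refine h.v1 (h.hy v h.hvQ (mem_C1.1 (zpowers_le.2 h2 (mem_zpowers_pow_iff.2 ?_))))
    have : k < 6 := by omega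
    rw [h.oy]; interval_cases k <;> rfl
  have e := Finset.eq_of_subset_of_card_le
    (s := (Finset.range 7).image fun i => y ^ i * v * (y ^ i)⁻¹)
    (t := (Q : Set G).toFinset.erase 1) (fun a ha => by
      obtain ⟨i, -, rfl⟩ := Finset.mem_image.1 ha
      exact Finset.mem_erase.2 ⟨fun e => h.v1 (conj_eq_one_iff.1 e),
        Set.mem_toFinset.2 (h.toPH.conj_mem (pow_mem h.yH i) h.hvQ)⟩) (by
      rw [Finset.card_erase_of_mem (Set.mem_toFinset.2 Q.one_mem), Set.toFinset_card,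
        ← Nat.card_eq_fintype_card, SetLike.coe_sort_coe, h.hc,
        Finset.card_image_of_injOn fun i a j b e => by_contra fun n => (Nat.lt_or_gt_of_ne n).elim
          (fun n => k i j n (Finset.mem_range.1 b) e) fun n => k j i n (Finset.mem_range.1 a) e.symm,
        Finset.card_range])
  simpa using e.ge (Finset.mem_erase.2 ⟨h1, Set.mem_toFinset.2 hq⟩)

theorem conj_v {q : G} (hq : q ∈ Q) (h1 : q ≠ 1) : IsConj v q :=
  have ⟨_, _, e⟩ := h.orbit hq h1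
  isConj_iff.2 ⟨_, e⟩

theorem VH {u : G} (hu : u ∈ V) (hH : u ∈ H) : u ∈ zpowers v :=
  h.memZ.2 ((em _).imp_right fun e => (h.fusion h.hv hu (h.conj_v (h.vle hu hH) e)).symm)

theorem cnt {A : Subgroup G} (h2 : Nat.card A ∣ 2 ^ 5) (hH : A ≤ H) (hv : v ∈ A)
    (hx : x ∈ normalizer (A : Set G)) : Nat.card A = 2 ∨ Nat.card A = 8 ∨ Nat.card A = 32 := by
  have := Fact.mk Nat.prime_three
  have := Fact.mk Nat.prime_two
  obtain ⟨k, hk, e⟩ := (Nat.dvd_prime_pow Nat.prime_two).1 h2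
  have h1 := card_modEq_card_inf_centralizer (q := 3) (IsPGroup.of_card (n := 1)
    (by rw [Nat.card_zpowers, h.ord, pow_one])) (zpowers_le.2 hx)
  rw [zpowers_eq_closure, centralizer_closure, show A ⊓ C1 x = zpowers v from le_antisymm
    (fun c hc => h.VH (h.mem_of_two (IsPGroup.of_card e) hc.1 (mem_C1.1 hc.2).symm) (hH hc.1))
    (zpowers_le.2 ⟨hv, mem_C1.2 (h.comm v h.hv).symm⟩), Nat.card_zpowers, h.ov, e] at h1
  rw [e]
  interval_cases k <;> simp_all (config := {decide := true})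

theorem xQ : x ∈ normalizer (Q : Set G) := h.toPH.le_norm h.xH

theorem eq_Q {A : Subgroup G} (hA : A ≤ Q) (hv : v ∈ A) (hx : x ∈ normalizer (A : Set G)) {q : G}
    (hq : q ∈ A) (h1 : q ∉ zpowers v) : A = Q := by
  have h2 := card_le_of_le hA
  have h3 := card_dvd_of_le hA
  rw [h.hc] at h2 h3
  rcases h.cnt (h3.trans (by decide)) (hA.trans h.le) hv hx with e | e | e
  · exact absurd ((eq_of_le_of_card_ge (zpowers_le.2 hv) (by rw [e, Nat.card_zpowers, h.ov])).ge hq) h1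
  · exact eq_of_le_of_card_ge hA (by rw [e, h.hc])
  · omega

theorem not_le : ¬ Q ≤ zpowers v := fun e => by
  have := card_le_of_le e
  rw [h.hc, Nat.card_zpowers, h.ov] at this
  omega

theorem ab : a0 ∈ h.toPH.img (C1 v) ∨ b0 ∈ h.toPH.img (C1 v) := by
  obtain ⟨a, ha, e⟩ := h.surj a0
  obtain ⟨i, hi, e'⟩ := h.orbit (h.toPH.conj_mem (inv_mem ha) h.hvQ) fun e =>
    h.v1 (conj_eq_one_iff.1 e)
  refine t_ab (h.toPH.mem_img.2 ⟨x, h.xM, h.xH, h.px⟩) (h.toPH.mem_img.2 ⟨σ, h.sM, h.sH, h.ps⟩) hi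
    (h.toPH.mem_img.2 ⟨a * y ^ i, mem_C1.2 ?_, mul_mem ha (pow_mem h.yH i), by
      rw [h.mul ha (pow_mem h.yH i), h.toPH.pow h.yH, e, h.py]⟩)
  rw [mul_assoc, mul_inv_eq_iff_eq_mul.1 e']; group

theorem al : EA x σ y⁻¹ v V H Q R fun g => al (φ g) :=
  { h.toLH.al, h with hy := fun q hq e => h.hy q hq ((Commute.inv_left_iff (a := y)).1 e) }

theorem dec {m : G} (hm : m ∈ C1 v) :
    ∃ r ∈ R, ∃ s ∈ H, s ∈ C1 v ∧ (∀ u ∈ V, s * u = u * s) ∧ m = r * s := by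
  have k : ∀ s ∈ H, (∀ u ∈ V, s * u = u * s) → ∀ r ∈ R, ∀ u ∈ V, r * m = s * u →
      ∃ r ∈ R, ∃ s ∈ H, s ∈ C1 v ∧ (∀ u ∈ V, s * u = u * s) ∧ m = r * s := fun s a b r c u d e =>
    ⟨r⁻¹ * u, mul_mem (inv_mem c) (h.hs.vle u d (mem_C1.2 (h.vcomm d h.hv))), s, a,
      mem_C1.2 (b v h.hv), b, by rw [mul_assoc, ← b u d, ← e, inv_mul_cancel_left]⟩
  have c : ∀ u ∈ V, x ∈ C1 u ∧ σ ∈ C1 u := fun u hu =>
    ⟨mem_C1.2 (h.comm u hu), mem_C1.2 (h.sv u hu)⟩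
  obtain ⟨r, hr, e | e⟩ := h.hs.cover m hm
  · obtain ⟨u, hu, e | e | e⟩ := h.cent _ (mul_inv_eq_iff_eq_mul.1 e).symm
    exacts [k 1 (one_mem _) (by simp) r hr u hu (by rw [e, one_mul]), k x h.xH h.comm r hr u hu e,
      k _ (inv_mem h.xH) (fun u hu => h.comm' hu) r hr u hu e]
  · obtain ⟨u, hu, e | e | e⟩ := h.toCI.of_inv e
    · exact k σ h.sH h.sv r hr u hu e
    · exact k (x⁻¹ * σ * x) (mul_mem (mul_mem (inv_mem h.xH) h.sH) h.xH) (fun u hu => mem_C1.1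
        (mul_mem (mul_mem (inv_mem (c u hu).1) (c u hu).2) (c u hu).1)) r hr u hu (by
          rw [mul_assoc _ x, h.comm u hu, ← mul_assoc, mul_assoc _ σ, ← e]; group)
    · exact k (x * σ * x⁻¹) (mul_mem (mul_mem h.xH h.sH) (inv_mem h.xH)) (fun u hu => mem_C1.1
        (mul_mem (mul_mem (c u hu).1 (c u hu).2) (inv_mem (c u hu).1))) r hr u hu (by
          rw [mul_assoc _ x⁻¹, h.comm' hu, ← mul_assoc, mul_assoc _ σ, ← e]; group)

theorem outer {t : G} (ht : t ∈ H) (h2 : t * t = 1) (hQ : t ∉ Q) : IsConj t σ ∨ IsConj t (σ * v) := by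
  obtain ⟨k, hk⟩ := t_inv (l := φ t) (by rw [← h.mul ht ht, h2, h.toPH.one]) (mt (h.ker ht).1 hQ)
  obtain ⟨k, k1, rfl⟩ := h.surj k
  have h3 := mul_mem (mul_mem k1 ht) (inv_mem k1)
  rw [← h.toPH.conj k1 ht, ← h.mul ht h3] at hk
  obtain ⟨g, hg, u, hu, e⟩ := h.invx h.xH (τ := t) (mul_mem ht h3) (by
    rw [mul_inv_rev, conj_inv, inv_eq_of_mul_eq_one_right h2, ← mul_assoc t, h2, one_mul])
    (hk.trans ((orderOf_map_dvd h.toPH.hom ⟨_, mul_mem ht h3⟩).trans (orderOf_coe _).symm.dvd))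
  rcases h.memZ.1 (h.VH hu ((mul_mem_cancel_left h.sH).1
    (e ▸ mul_mem (mul_mem hg ht) (inv_mem hg)))) with rfl | rfl
  exacts [.inl (isConj_iff.2 ⟨g, e.trans (mul_one _)⟩), .inr (isConj_iff.2 ⟨g, e⟩)]

/-- The extraspecial group. -/
def E : Subgroup G := h.toPH.pre U0

theorem mem_E {e : G} : e ∈ h.E ↔ e ∈ H ∧ φ e ∈ U0 := h.toPH.mem_pre

theorem EH : h.E ≤ H := fun _ e => (h.mem_E.1 e).1

theorem QE : Q ≤ h.E := h.toPH.le_pre _

theorem card_E : Nat.card h.E = 32 := by rw [E, h.toPH.card_pre, card_U0, h.hc]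

theorem two_E : IsPGroup 2 h.E := IsPGroup.of_card (n := 5) h.card_E

theorem xE : x ∈ normalizer (h.E : Set G) := mem_normalizer_fintype fun e he =>
  h.mem_E.2 ⟨mul_mem (mul_mem h.xH (h.EH he)) (inv_mem h.xH), by
    rw [h.toPH.conj h.xH (h.EH he), h.px]; exact U0_x _ (h.mem_E.1 he).2⟩

theorem sE : σ ∈ normalizer (h.E : Set G) := mem_normalizer_fintype fun e he =>
  h.mem_E.2 ⟨mul_mem (mul_mem h.sH (h.EH he)) (inv_mem h.sH), by
    rw [h.toPH.conj h.sH (h.EH he), h.ps]; exact U0_s _ (h.mem_E.1 he).2⟩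

theorem cntE {A : Subgroup G} (hA : A ≤ h.E) (hv : v ∈ A) (hx : x ∈ normalizer (A : Set G)) :
    Nat.card A = 2 ∨ Nat.card A = 8 ∨ Nat.card A = 32 :=
  h.cnt ((card_dvd_of_le hA).trans h.card_E.dvd) (hA.trans h.EH) hv hx

theorem cent_E {c : G} (hc : ∀ e ∈ h.E, e * c = c * e) (hv : h.E ≤ C1 v) : c ∈ zpowers v := by
  by_contra n
  have h1 := h.eq_Q (A := Q ⊓ centralizer (h.E : Set G)) inf_le_left
    ⟨h.hvQ, fun e he => mem_C1.1 (hv he)⟩ (mem_normalizer_fintype fun q hq =>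
      ⟨h.toPH.conj_mem h.xH hq.1, fun e he => by
        simpa [mul_assoc] using conj_comm x (hq.2 _ ((mem_normalizer_iff''.1 h.xE e).1 he))⟩)
    ⟨h.qcent c fun q hq => (hc q (h.QE hq)).symm, hc⟩ n
  obtain ⟨a, ha, e⟩ := h.surj a0
  have h2 := h.toPH.of_mem (h.qcent a fun q hq =>
    (h1.ge hq).2 a (h.mem_E.2 ⟨ha, e ▸ .inr (.inl rfl)⟩))
  exact absurd (e.symm.trans h2) (by decide +kernel)

variable (ha : a0 ∈ h.toPH.img (C1 v))
include ha

theorem EM : h.E ≤ C1 v := fun e he => by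
  have h1 : a1 ∈ h.toPH.img (C1 v) := by
    have : x0 ∈ h.toPH.img (C1 v) := h.toPH.mem_img.2 ⟨x, h.xM, h.xH, h.px⟩
    exact mul_mem (mul_mem this ha) (inv_mem this)
  obtain ⟨a, a1, a2, a3⟩ := h.toPH.mem_img.1 (show φ e ∈ h.toPH.img (C1 v) by
    rcases (h.mem_E.1 he).2 with e | e | e | e <;> rw [e]
    exacts [one_mem _, ha, h1, mul_mem ha h1])
  obtain ⟨q, hq, rfl⟩ := h.toPH.exists_of_eq a2 (h.EH he) a3
  exact mul_mem a1 (h.QM hq)

theorem ER : h.E ≤ R := h.hs.le_of_norm h.toCl h.xM h.two_E (h.EM ha)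
  fun _ hp => (mem_normalizer_iff.1 h.xE _).1 hp

theorem comm_Q {q e : G} (hq : q ∈ Q) (he : e ∈ h.E) : e * q * e⁻¹ * q⁻¹ ∈ zpowers v := by
  obtain ⟨p, p1, p2⟩ := fx_lt (hB := h.QM.trans h.normZ) h.two_E h.QE
    (h.EH.trans h.toPH.le_norm) h.not_le
  exact ((h.eq_Q (A := fx Q h.E (zpowers v) _) (fun _ e => e.1) ⟨h.hvQ, fun n hn => by
    rw [mem_C1.1 (h.EM ha hn)]; simp⟩ (fx_norm h.xQ h.xE (h.normZ h.xM)) p1 p2).ge hq).2 e he

theorem symp : SympPair h.E v := by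
  refine ⟨h.QE h.hvQ, h.ov, fun q hq => mem_C1.1 (h.EM ha hq), fun e he => ?_,
    fun c _ hc _ => h.cent_E hc (h.EM ha)⟩
  by_cases hQ : e ∈ Q
  · rw [h.qsq e hQ]; exact one_mem _
  obtain ⟨e1, e2⟩ := h.mem_E.1 he
  obtain ⟨g, hg⟩ := l7_sq (U0_sq _ e2) (mt (h.ker e1).1 hQ)
  obtain ⟨g, g1, rfl⟩ := h.surj g
  rw [← h.ps, ← h.toPH.conj g1 h.sH] at hg
  have h1 := mul_mem (mul_mem g1 h.sH) (inv_mem g1)
  obtain ⟨q, hq, rfl⟩ := h.toPH.exists_of_eq h1 e1 hg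
  have := h.comm_Q ha hq (h.mem_E.2 ⟨h1, hg ▸ e2⟩)
  rwa [inv_eq_of_mul_eq_one_right (conj_sq h.s2 g), inv_eq_of_mul_eq_one_right (h.qsq q hq),
    mul_assoc] at this

theorem mem_E_of {N : Subgroup G} (h2 : IsPGroup 2 N) (hM : N ≤ C1 v)
    (hx : x ∈ normalizer (N : Set G)) {n : G} (hn : n ∈ N) (hH : n ∈ H) : n ∈ h.E := by
  have k : ∀ n ∈ N, n ∈ H → ¬ 3 ∣ orderOf (φ n) := fun n hn hH e => by
    obtain ⟨k, hk⟩ := h2 ⟨n, hn⟩
    have := e.trans (orderOf_dvd_of_pow_eq_one (show φ n ^ 2 ^ k = 1 by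
      rw [← h.toPH.pow hH, show n ^ 2 ^ k = 1 from congrArg Subtype.val hk, h.toPH.one]))
    exact absurd (Nat.prime_three.dvd_of_dvd_pow this) (by decide)
  have h3 := mul_mem (mul_mem h.xH hH) (inv_mem h.xH)
  rcases t_max (h.toPH.mem_img.2 ⟨x, h.xM, h.xH, h.px⟩) (h.toPH.mem_img.2 ⟨σ, h.sM, h.sH, h.ps⟩) ha
    (fun e => by
      obtain ⟨a, a1, a2, a3⟩ := h.toPH.mem_img.1 e
      obtain ⟨q, hq, e⟩ := h.toPH.exists_of_eq a2 h.yH (a3.trans h.py.symm)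
      exact h.v1 (h.hy v h.hvQ (mem_C1.1 (e ▸ mul_mem a1 (h.QM hq)))))
    (h.toPH.mem_img.2 ⟨n, hM hn, hH, rfl⟩) with e | e | e
  · exact h.mem_E.2 ⟨hH, e⟩
  · exact absurd e (k n hn hH)
  · rw [← h.px, ← h.toPH.conj h.xH hH, ← h.mul hH h3] at e
    exact absurd e (k _ (mul_mem hn ((mem_normalizer_iff.1 hx _).1 hn)) (mul_mem hH h3))

end EA

end Cfsg.Lib.Apw
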