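import Cfsg.Agent.Apw.CaseA1

/-! The 2-local subgroup `2³.L₃(2)`: 2-groups normalising `E`. -/

set_option autoImplicit false
set_option linter.unusedSectionVars false

namespace Cfsg.Lib.Apw

open Subgroup Cfsg.Lib.Solv Cfsg.Lib.Known Cfsg.Lib.Known.G168 Cfsg.Lib.Local CA

variable {G : Type*} [Group G]

namespace EA

variable [Finite G] {x σ y v : G} {V H Q R : Subgroup G} {φ : G → L7}
  (h : EA x σ y v V H Q R φ)
include h

theorem cardZ : Nat.card (zpowers v) = 2 := by rw [Nat.card_zpowers, h.ov]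

theorem two_of {K L : Subgroup G} (hL : Nat.card L = 8) (hK : K ≤ L) (h0 : ¬ L ≤ K) (hv : v ∈ K)
    {a b : G} (ha : a ∈ K) (hb : b ∈ K) (h1 : a ∉ zpowers v) (h2 : b ∉ zpowers v) :
    a * b ∈ zpowers v := by
  have h4 := ((zpowers v).subgroupOf K).card_mul_index
  rw [card_subgroupOf_of_le (zpowers_le.2 hv), h.cardZ] at h4
  have h5 : Nat.card K ≠ 8 := fun e => h0 (eq_of_le_of_card_ge hK (by rw [e, hL])).ge
  have h6 : ((zpowers v).subgroupOf K).index ≠ 1 := fun e => h1 ((index_eq_one.1 e).ge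
    (mem_top (⟨a, ha⟩ : K)))
  have h7 := card_dvd_of_le hK
  have h8 := Nat.le_of_dvd Nat.card_pos h7
  rw [hL, ← h4] at h7 h8
  exact (mul_mem_iff_of_index_two (H := (zpowers v).subgroupOf K) (a := ⟨a, ha⟩) (b := ⟨b, hb⟩) (by
    generalize ((zpowers v).subgroupOf K).index = k at *
    have : k ≤ 4 := by omega
    interval_cases k <;> omega)).2 (iff_of_false h1 h2)

variable (ha : a0 ∈ h.toPH.img (C1 v)) {N : Subgroup G} (h2 : IsPGroup 2 N) (hM : N ≤ C1 v)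
  (hx : x ∈ normalizer (N : Set G)) (hEN : h.E ≤ N) (hNE : N ≤ normalizer (h.E : Set G))
include ha h2 hM hx

theorem mem_E_of' {n : G} (hn : n ∈ N) (hq : ∀ q ∈ Q, n * q * n⁻¹ ∈ Q) : n ∈ h.E :=
  h.mem_E_of ha h2 hM hx hn (h.qnorm n hq)

include hEN hNE

theorem beta (hn : ¬ N ≤ h.E) : ∃ C ≤ h.E, Nat.card C = 8 ∧ v ∈ C ∧
    (∀ c ∈ C, c ∈ Q → c ∈ zpowers v) ∧ (∀ c ∈ C, ∀ n ∈ N, n * c * n⁻¹ * c⁻¹ ∈ zpowers v) ∧
    ∀ n ∈ N, ∀ q ∈ Q, n * q * n⁻¹ * q⁻¹ ∈ C ∧ n * q * n⁻¹ * q⁻¹ ∈ C1 q := by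
  have S := h.symp ha
  have EM := h.EM ha
  have xZ := h.normZ h.xM
  set P := fx h.E N (zpowers v) (EM.trans h.normZ) with hP
  have vP : v ∈ P := ⟨S.mem, fun n hn => by rw [mem_C1.1 (hM hn)]; simp⟩
  have xP : x ∈ normalizer (P : Set G) := fx_norm h.xE hx xZ
  have QP : ¬ Q ≤ P := fun e => hn fun n hn => h.mem_E_of' ha h2 hM hx hn fun q hq =>
    (mul_mem_cancel_right (inv_mem hq)).1 (zpowers_le.2 h.hvQ ((e hq).2 n hn))
  have PQ : ∀ p ∈ P, p ∈ Q → p ∈ zpowers v := fun p hp hq => by_contra fun e => QP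
    ((h.eq_Q (A := Q ⊓ P) inf_le_left ⟨h.hvQ, vP⟩ (inf_normalizer_le_normalizer_inf ⟨h.xQ, xP⟩)
      ⟨hq, hp⟩ e).ge.trans inf_le_right)
  set C := h.E ⊓ centralizer (P : Set G) with hC
  have nC : ∀ g ∈ normalizer (h.E : Set G), g ∈ normalizer (P : Set G) →
      g ∈ normalizer (C : Set G) := fun g a b => mem_normalizer_fintype fun c hc =>
    ⟨(mem_normalizer_iff.1 a c).1 hc.1, fun p hp => by
      simpa [mul_assoc] using conj_comm g (hc.2 _ ((mem_normalizer_iff''.1 b p).1 hp))⟩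
  have xC := nC x h.xE xP
  have vC : v ∈ C := ⟨S.mem, fun p hp => S.central p hp.1⟩
  have bC : ∀ n ∈ N, ∀ q ∈ h.E, n * q * n⁻¹ * q⁻¹ ∈ C := fun n hn q hq =>
    ⟨h.E.mul_mem ((mem_normalizer_iff.1 (hNE hn) q).1 hq) (h.E.inv_mem hq), fun p hp => by
      refine (commutatorElement_eq_one_iff_mul_comm.1 ?_).symm
      rw [S.comm_adjoint (hNE hn) hq hp.1, commutatorElement_eq_one_iff_mul_comm]
      exact S.comm_of_mem (by simpa using hp.2 _ (inv_mem hn)) hq⟩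
  have CZ : ¬ C ≤ zpowers v := fun e => QP fun q hq => ⟨h.QE hq, fun n hn => e (bC n hn q (h.QE hq))⟩
  obtain ⟨c, c1, c2⟩ := fx_lt (hB := (inf_le_left.trans EM).trans h.normZ) h2 (inf_le_left.trans hEN)
    (fun n hn => nC n (hNE hn) (mem_normalizer_fintype fun p hp =>
      (P.mul_mem_cancel_right (P.inv_mem hp)).1 (zpowers_le.2 vP (hp.2 n hn)))) CZ
  have cP : c ∈ P := ⟨c1.1.1, c1.2⟩
  have k : ∀ A ≤ C, v ∈ A → x ∈ normalizer (A : Set G) → c ∈ A → Nat.card A = 8 := fun A a b d e => by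
    rcases h.cntE (a.trans inf_le_left) b d with e' | e' | e'
    · exact absurd ((eq_of_le_of_card_ge (zpowers_le.2 b) (by rw [e', h.cardZ])).ge e) c2
    · exact e'
    · exact absurd (h.cent_E (fun g hg => ((a ((eq_of_le_of_card_ge (a.trans inf_le_left)
        (by rw [e', h.card_E])).ge hg)).2 c cP).symm) EM) c2
  have c8 := k C le_rfl vC xC c1.1
  have CP : C ≤ P := (eq_of_le_of_card_ge (inf_le_left (b := P)) (by rw [c8, k _ inf_le_left ⟨vC, vP⟩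
    (inf_normalizer_le_normalizer_inf ⟨xC, xP⟩) ⟨c1.1, cP⟩])).ge.trans inf_le_right
  have cc : ∀ a ∈ C, ∀ b ∈ C, Commute a b := fun a ha b hb => hb.2 a (CP ha)
  have sq : ∀ a ∈ C, a * a = 1 := fun a ha => by
    have hb := (mem_normalizer_iff.1 xC a).1 ha
    have hd := (mem_normalizer_iff.1 xC _).1 hb
    have e1 : x * (x * (x * a * x⁻¹) * x⁻¹) * x⁻¹ = a := by
      calc _ = (x * x * x) * a * (x * x * x)⁻¹ := by group
        _ = a := by rw [h.cube]; group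
    have s : ∀ a ∈ C, x * a * x⁻¹ * (x * a * x⁻¹) = a * a := fun a ha => by
      rw [conj_mul, S.conj_eq_of_mem h.xE (S.sq_mem a ha.1)]
    have h3 := mul_mem (mul_mem ha hb) hd
    have e2 := S.mul_self_of_mem (h.VH (h.mem_of_two h.two_E h3.1 (by
      rw [← mul_inv_eq_iff_eq_mul, ← conj_mul, ← conj_mul, e1, ← (cc _ ha _ (mul_mem hb hd)).eq,
        mul_assoc a])) (h.EH h3.1))
    rwa [(cc _ hd _ (mul_mem ha hb)).mul_mul_mul_comm, (cc _ hb _ ha).mul_mul_mul_comm, s _ hb,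
      s _ ha, S.mul_self_of_mem (S.sq_mem a ha.1), one_mul] at e2
  refine ⟨C, inf_le_left, c8, vC, fun c hc => PQ c (CP hc), fun c hc => (CP hc).2, fun n hn q hq =>
    ⟨bC n hn q (h.QE hq), mem_C1.2 (comm_of_three (sq _ (bC n hn q (h.QE hq))) (h.qsq q hq) ?_)⟩⟩
  rw [inv_mul_cancel_right]; exact conj_sq (h.qsq q hq) n

theorem mem_of_fix {u f : G} (hu : u ∈ N) (hf : f ∈ Q) (h1 : f ∉ zpowers v)
    (h3 : u * f * u⁻¹ * f⁻¹ ∈ zpowers v) : u ∈ h.E := by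
  by_contra hn
  obtain ⟨C, -, -, -, -, -, hC⟩ := h.beta ha h2 hM hx hEN hNE fun e => hn (e hu)
  have S := h.symp ha
  have ZQ := zpowers_le.2 h.hvQ
  refine hn (h.mem_E_of' ha h2 hM hx hu fun q hq => ?_)
  have bE := mul_mem ((mem_normalizer_iff.1 (hNE hu) q).1 (h.QE hq)) (inv_mem (h.QE hq))
  by_cases e : Q ≤ Q ⊓ C1 (u * q * u⁻¹ * q⁻¹)
  · exact (mul_mem_cancel_right (inv_mem hq)).1 (h.qcent _ fun r hr => (mem_C1.1 (e hr).2).symm)
  by_cases e' : q ∈ zpowers v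
  · rw [S.conj_eq_of_mem (hNE hu) e']; exact hq
  have := h.two_of h.hc inf_le_left e ⟨h.hvQ, mem_C1.2 (S.central _ bE).symm⟩
    ⟨hq, mem_C1.2 (mem_C1.1 (hC u hu q hq).2).symm⟩ ⟨hf, mem_C1.2 (by
      refine (commutatorElement_eq_one_iff_mul_comm.1 ?_).symm
      rw [S.comm_adjoint (hNE hu) (h.QE hq) (h.QE hf), commutatorElement_eq_one_iff_mul_comm]
      refine S.comm_of_mem ?_ (h.QE hq)
      convert (mem_normalizer_iff''.1 (h.normZ (hM hu)) _).1 (inv_mem h3) using 1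
      group)⟩ e' h1
  rw [show u * q * u⁻¹ = u * (q * f) * u⁻¹ * f⁻¹ * (u * f * u⁻¹ * f⁻¹)⁻¹ by group,
    S.conj_eq_of_mem (hNE hu) this]
  exact mul_mem (mul_mem (ZQ this) (inv_mem hf)) (inv_mem (ZQ h3))

theorem mul_mem_E {n m : G} (hn : n ∈ N) (hm : m ∈ N) (h1 : n ∉ h.E) (h3 : m ∉ h.E) :
    n * m ∈ h.E := by
  obtain ⟨C, CE, c8, vC, CQ, hC, hb⟩ := h.beta ha h2 hM hx hEN hNE fun e => h1 (e hn)
  obtain ⟨f, hf, e⟩ : ∃ f ∈ Q, ¬ C ≤ C ⊓ C1 f := by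
    by_contra! e
    have := card_le_of_le fun c hc => CQ c hc (h.qcent c fun q hq => mem_C1.1 (e q hq hc).2)
    rw [c8, h.cardZ] at this
    omega
  have fZ : f ∉ zpowers v := fun d => e fun c hc =>
    ⟨hc, mem_C1.2 ((h.symp ha).comm_of_mem d (CE hc))⟩
  have k := fun u hu => h.mem_of_fix ha h2 hM hx hEN hNE (u := u) hu hf fZ
  refine k _ (mul_mem hn hm) ?_
  convert mul_mem (hC _ (hb m hm f hf).1 n hn) (h.two_of c8 inf_le_left e
    ⟨vC, mem_C1.2 (mem_C1.1 (h.QM hf)).symm⟩ (hb m hm f hf) (hb n hn f hf) (mt (k m hm) h3)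
    (mt (k n hn) h1)) using 1
  group

end EA

end Cfsg.Lib.Apw
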