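import Cfsg.Agent.Apw.CaseCa
import Cfsg.Agent.Local.PGVBasic

/-! The 2-local subgroup `2⁶.L₃(2)` does not occur. -/

set_option autoImplicit false

namespace Cfsg.Lib.Apw

open Subgroup Cfsg.Lib.Solv Cfsg.Lib.Known Cfsg.Lib.Known.G168
open scoped Pointwise

variable {G : Type*} [Group G] [Finite G]

namespace CC

theorem exists_inv {Q Q' : Subgroup G} (h : ∀ q, q ∈ Q ∨ q ∈ Q' → q * q = 1) (hK : ¬ IsPGroup 2 ↥(Q ⊔ Q')) :
    ∃ q, (q ∈ Q ∨ q ∈ Q') ∧ ∃ w ∈ Q ⊔ Q', (orderOf w).Prime ∧ orderOf w ≠ 2 ∧ q * w * q⁻¹ = w⁻¹ := by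
  have := Fact.mk Nat.prime_two
  by_contra hn
  let S : Set ↥(Q ⊔ Q') := {t | ∃ k q : ↥(Q ⊔ Q'), (q.1 ∈ Q ∨ q.1 ∈ Q') ∧ t = k * q * k⁻¹}
  have h1 := Local.baer_suzuki_closure (p := 2) (K := S) (by
    rintro _ ⟨k, q, hq, rfl⟩ g
    exact ⟨g * k, q, hq, by group⟩) (by
    rintro _ ⟨k, q, hq, rfl⟩ t ⟨k', q', hq', e⟩
    have a1 : q * q = 1 := Subtype.ext (h _ hq)
    have a2 : t * t = 1 := e ▸ conj_sq (Subtype.ext (h _ hq')) k'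
    have a3 := conj_sq a1 k
    obtain ⟨n, hn'⟩ : ∃ n, orderOf (k * q * k⁻¹ * t) = 2 ^ n := by
      refine ⟨_, Nat.eq_prime_pow_of_unique_prime_dvd (orderOf_pos _).ne' fun {p} hp hd => by_contra fun h2 => hn ?_⟩
      have a4 := orderOf_pow_orderOf_div (orderOf_pos _).ne' hd
      generalize orderOf (k * q * k⁻¹ * t) / p = m at a4
      have a5 : q * (k⁻¹ * (k * q * k⁻¹ * t) * k) * q⁻¹ = (k⁻¹ * (k * q * k⁻¹ * t) * k)⁻¹ := by
        rw [mul_inv_rev, mul_inv_rev, mul_inv_rev, inv_eq_of_mul_eq_one_right a2, inv_eq_of_mul_eq_one_right a3,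
          show q * (k⁻¹ * (k * q * k⁻¹ * t) * k) * q⁻¹ = q * q * (k⁻¹ * t * k * q⁻¹) by group, a1,
          inv_eq_of_mul_eq_one_right a1]
        group
      have a6 : orderOf (((k⁻¹ * (k * q * k⁻¹ * t) * k) ^ m : ↥(Q ⊔ Q')) : G) = p := by
        rw [orderOf_coe, ← a4, ← ord_conj k⁻¹ ((k * q * k⁻¹ * t) ^ m), ← conj_pow, inv_inv]
      refine ⟨q, hq, _, ((k⁻¹ * (k * q * k⁻¹ * t) * k) ^ m).2, a6 ▸ hp, a6 ▸ h2, ?_⟩
      have := congrArg (fun a : ↥(Q ⊔ Q') => ((a ^ m : ↥(Q ⊔ Q')) : G)) a5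
      simpa only [conj_pow, inv_pow, coe_mul, coe_inv] using this
    exact PGV.isPGroup_closure_pair a3 a2 (k := n) (hn' ▸ pow_orderOf_eq_one _))
  refine hK (h1.map (Q ⊔ Q').subtype |>.to_le (sup_le (fun q hq => ?_) fun q hq => ?_))
  · exact ⟨⟨q, mem_sup_left hq⟩, subset_closure ⟨1, ⟨q, mem_sup_left hq⟩, Or.inl hq, by simp⟩, rfl⟩
  · exact ⟨⟨q, mem_sup_right hq⟩, subset_closure ⟨1, ⟨q, mem_sup_right hq⟩, Or.inr hq, by simp⟩, rfl⟩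

namespace LC

variable {x σ y : G} {V H Q : Subgroup G} {φ : G → L7} (h : LC x σ y V H Q φ)
include h

theorem mem_of {n : G} (hn : ∀ q ∈ Q, n * q * n⁻¹ ∈ H) : n ∈ H :=
  h.qnorm n fun _ hq => (h.wc (g := n) (by rintro _ ⟨q, hq, rfl⟩; exact hn q hq)).le (cj_mem hq)

theorem two_le {P : Subgroup G} (hP : IsPGroup 2 P) (hQ : Q ≤ P) : P ≤ H := by
  have := Fact.mk Nat.prime_two
  by_contra e
  obtain ⟨n, ⟨a1, a2⟩, a3⟩ := SetLike.exists_of_lt (PG.lt_inf_normalizer hP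
    (lt_of_le_of_ne (inf_le_left : P ⊓ H ≤ P) fun d => e (d ▸ inf_le_right)))
  exact a3 ⟨a1, h.mem_of fun q hq => ((mem_normalizer_iff.1 a2 q).1 ⟨hQ hq, h.le hq⟩).2⟩

theorem cent_le (hs : ∀ v ∈ V, v ≠ 1 → ∃ R, S6 x V (C1 v) R) {v : G} (hv : v ∈ V) (v1 : v ≠ 1) : C1 v ≤ H := by
  obtain ⟨R, hR⟩ := hs v hv v1
  have h1 := hR.le_of_norm h.toCl (mem_C1.2 (h.comm v hv)) (isPGroup_of_sq h.qsq)
    (fun q hq => mem_C1.2 (comm_of_sq h.qsq hq (h.hV hv))) fun _ => h.toPH.conj_mem h.xH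
  exact fun m hm => h.mem_of fun q hq => h.two_le hR.two h1 (hR.norm m hm q (h1 hq))

theorem wc' {g k : G} (hF : MulAut.conj g • Q ≤ MulAut.conj k • H) : MulAut.conj g • Q = MulAut.conj k • Q := by
  have := (h.conj k).wc (g := g * k⁻¹) (by rwa [← mul_smul, ← map_mul, inv_mul_cancel_right])
  rwa [← mul_smul, ← map_mul, inv_mul_cancel_right] at this

theorem norm_F {F : Subgroup G} (hF : ∀ f ∈ F, f * f = 1) (hH : F ≤ H) (hc : 16 ≤ Nat.card (F ⊓ Q : Subgroup G)) :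
    Q ≤ normalizer (F : Set G) := fun q hq => mem_normalizer_fintype fun f hf => by
  by_cases a1 : f ∈ Q
  · rwa [comm_of_sq h.qsq hq a1, mul_inv_cancel_right]
  have a2 := eq_of_le_of_card_ge (H := F ⊓ Q) (K := Q ⊓ C1 f) (fun q hq => ⟨hq.2, mem_C1.2 (comm_of_sq hF hq.1 hf)⟩)
    (by rwa [h.c0 (hH hf) a1 (hF f hf ▸ one_mem Q)])
  have a3 := h.toPH.conj_mem (hH hf) (inv_mem hq)
  have a4 := inv_eq_of_mul_eq_one_right (hF f hf)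
  rw [show q * f * q⁻¹ = q * (f * q⁻¹ * f⁻¹) * f by group]
  refine mul_mem (a2.ge ⟨mul_mem hq a3, mem_C1.2 ?_⟩).1 hf
  nth_rw 2 [comm_of_sq h.qsq hq a3]
  rw [a4, show q * (f * q⁻¹ * f) * f = q * f * q⁻¹ * (f * f) by group,
    show f * (f * q⁻¹ * f * q) = f * f * (q⁻¹ * f * q) by group, hF f hf, inv_eq_of_mul_eq_one_right (h.qsq q hq),
    mul_one, one_mul]

end LC

end CC

open CC in
theorem LH.caseC {x σ y : G} {V H Q : Subgroup G} {φ : G → L7} (h : LH x σ y V H Q φ) (hc : Nat.card Q = 64)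
    (hy : ∀ q ∈ Q, y * q = q * y → q = 1) (hV : V ≤ Q) (h4 : Nat.card V = 4)
    (hs : ∀ v ∈ V, v ≠ 1 → ∃ R, S6 x V (C1 v) R) : False := by
  replace h : LC x σ y V H Q φ := ⟨h, hc, hy, hV, h4⟩
  have P := h.toPH
  have cH := fun {v : G} => h.cent_le hs (v := v)
  have cH' : ∀ k, ∀ v ∈ V, v ≠ 1 → C1 (k * v * k⁻¹) ≤ MulAut.conj k • H := fun k v a1 a2 => by
    rw [C1, ← conj_smul_centralizer_singleton]
    exact conj_smul_mono k (cH a1 a2)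
  obtain ⟨v1, b1, b2⟩ := V.bot_or_exists_ne_one.resolve_left fun e => by simp [e] at h4
  obtain ⟨u, hu, e⟩ := h.invl v1 (ord_two (h.sq v1 b1) b2)
  obtain ⟨g, hg⟩ := isConj_iff.1 e
  have h' := h.conj g
  have s1 : σ * u ∈ MulAut.conj g • Q := hg ▸ cj_mem (hV b1)
  have s2 : C1 (σ * u) ≤ MulAut.conj g • H := hg ▸ cH' g v1 b1 b2
  have s3 := mul_mem h.sH (h.le (hV hu))
  have s4 : φ (σ * u) = s0 := by rw [h.mul h.sH (h.le (hV hu)), P.of_mem (hV hu), mul_one, h.ps]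
  have s5 : σ * u ∉ Q := fun a => absurd (s4.symm.trans (P.of_mem a)) (by decide +kernel)
  have s6 : ∀ k, Q ≤ MulAut.conj k • H → MulAut.conj g • Q ≤ MulAut.conj k • H → False := fun k a1 a2 => by
    have := h.wc' (g := 1) (k := k) (by rwa [map_one, one_smul])
    rw [map_one, one_smul, ← h.wc' a2] at this
    exact s5 (this.ge s1)
  have s7 : ¬ MulAut.conj g • Q ≤ H := fun a => s6 1 (by rw [map_one, one_smul]; exact h.le) (by rwa [map_one, one_smul])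
  have s8 : V ≤ C1 (σ * u) := fun v hv => mem_C1.2 ((h.toCI.mul hu).sv v hv).symm
  generalize σ * u = s at *
  generalize MulAut.conj g • Q = Q' at *
  generalize MulAut.conj g • H = H' at *
  have q2 := h'.qsq
  have VQ : ∀ v ∈ V, v ≠ 1 → v ∉ Q' := fun v a1 a2 a3 =>
    s7 fun q hq => cH a1 a2 (mem_C1.2 (comm_of_sq q2 hq a3))
  have c1 := h.c0 s3 s5 (q2 s s1 ▸ one_mem Q)
  have c2 : ∀ v ∈ V, v ≠ 1 → Nat.card (Q' ⊓ C1 v : Subgroup G) = 16 := fun v a1 a2 =>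
    h'.c0 (s2 (s8 a1)) (VQ v a1 a2) (h.sq v a1 ▸ one_mem _)
  have c3 := h'.card_le (A := Q ⊓ C1 s) (inf_le_right.trans s2) fun a ha => h.qsq a ha.1
  have d0 : V ⊓ Q' ≤ ⊥ := fun v hv => by_contra fun a => VQ v hv.1 a hv.2
  have eY : Q ⊓ C1 s ⊓ Q' = Q' ⊓ H ⊓ Q := le_antisymm (fun a ha => ⟨⟨ha.2, h.le ha.1.1⟩, ha.1.1⟩)
    fun a ha => ⟨⟨ha.2, mem_C1.2 (comm_of_sq q2 ha.1.1 s1)⟩, ha.1.1⟩
  have c4 := card_mul_le (A := V) (B := Q ⊓ C1 s ⊓ Q') (N := Q ⊓ C1 s) (le_inf hV s8) inf_le_left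
    ((inf_le_inf_left _ inf_le_right).trans d0)
  have c5 := h.card_le (A := Q' ⊓ H) inf_le_right fun a ha => q2 a ha.1
  rw [c1, h4, card_bot, eY] at c4
  rw [c1, eY] at c3
  have c6 : ∀ v ∈ V, v ≠ 1 → Q' ⊓ C1 v = Q' ⊓ H := fun v a1 a2 =>
    eq_of_le_of_card_ge (inf_le_inf_left _ (cH a1 a2)) (by rw [c2 v a1 a2]; omega)
  have c7 : Nat.card (Q' ⊓ H : Subgroup G) = 16 := c6 v1 b1 b2 ▸ c2 v1 b1 b2
  have cm : ∀ v ∈ V, ∀ b ∈ Q' ⊓ H, b * v = v * b := fun v a1 b a2 => by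
    by_cases a3 : v = 1
    · simp [a3]
    · exact mem_C1.1 ((c6 v a1 a3).ge a2).2
  obtain ⟨F, f1, f2, f3⟩ : ∃ F : Subgroup G, V ≤ F ∧ Q' ⊓ H ≤ F ∧ ∀ f ∈ F, ∃ v ∈ V, ∃ b ∈ Q' ⊓ H, f = v * b := by
    refine ⟨⟨⟨⟨{f | ∃ v ∈ V, ∃ b ∈ Q' ⊓ H, f = v * b}, ?_⟩, 1, one_mem _, 1, one_mem _, by simp⟩, ?_⟩,
      fun v hv => ⟨v, hv, 1, one_mem _, by simp⟩, fun b hb => ⟨1, one_mem _, b, hb, by simp⟩, fun f hf => hf⟩
    · rintro _ _ ⟨v, hv, b, hb, rfl⟩ ⟨v', hv', b', hb', rfl⟩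
      exact ⟨_, mul_mem hv hv', _, mul_mem hb hb', by rw [mul_assoc, ← mul_assoc b, cm v' hv' b hb]; group⟩
    · rintro _ ⟨v, hv, b, hb, rfl⟩
      exact ⟨_, inv_mem hv, _, inv_mem hb, by rw [mul_inv_rev, cm _ (inv_mem hv) _ (inv_mem hb)]⟩
  have f4 : ∀ f ∈ F, f * f = 1 := fun f hf => by
    obtain ⟨v, hv, b, hb, rfl⟩ := f3 f hf
    exact mul_sq (h.sq v hv) (q2 b hb.1) (cm v hv b hb).symm
  have f5 : F ≤ H := fun f hf => by
    obtain ⟨v, hv, b, hb, rfl⟩ := f3 f hf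
    exact mul_mem (h.le (hV hv)) hb.2
  have f6 : F ≤ C1 s := fun f hf => mem_C1.2 (comm_of_sq f4 hf (f2 ⟨s1, s3⟩))
  have f7 : 16 ≤ Nat.card (F ⊓ Q : Subgroup G) := by
    have := card_mul_le (A := V) (B := Q' ⊓ H ⊓ Q) (N := F ⊓ Q) (le_inf f1 hV) (inf_le_inf_right _ f2)
      ((inf_le_inf_left _ (inf_le_left.trans inf_le_left)).trans d0)
    rw [h4, card_bot] at this
    omega
  have f8 : 16 ≤ Nat.card (F ⊓ Q' : Subgroup G) := c7 ▸ card_le_of_le (le_inf f2 inf_le_left)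
  have f9 : Nat.card F ≤ 64 := by
    have a1 := h.card_le f5 f4
    have a2 := card_le_of_le (show F ⊓ Q ≤ Q ⊓ C1 s from fun a ha => ⟨ha.2, f6 ha.1⟩)
    omega
  have nK := sup_le (h.norm_F f4 f5 f7) (h'.norm_F f4 (f6.trans s2) f8)
  obtain ⟨z, hz, z1⟩ := (Q' ⊓ H ⊓ Q).bot_or_exists_ne_one.resolve_left fun e => by simp [e] at c3
  have z2 : Q ⊔ Q' ≤ C1 z := sup_le (fun q hq => mem_C1.2 (comm_of_sq h.qsq hq hz.2))
    fun q hq => mem_C1.2 (comm_of_sq q2 hq hz.1.1)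
  have z3 : ¬ 3 ∣ Nat.card (C1 z) := fun a => by
    obtain ⟨k, hk⟩ := h.exists_conj_mem a
    have a1 : k⁻¹ * z * k⁻¹⁻¹ ∈ V := h.mem_of_sq (by simpa [mul_assoc] using conj_comm k⁻¹ (mem_C1.1 hk))
      (conj_sq (h.qsq z hz.2) _)
    have a2 := cH' k _ a1 (mt conj_eq_one_iff.1 z1)
    rw [show k * (k⁻¹ * z * k⁻¹⁻¹) * k⁻¹ = z by group] at a2
    exact s6 k (le_sup_left.trans (z2.trans a2)) (le_sup_right.trans (z2.trans a2))
  obtain ⟨q, hq, w, w1, w2, w3, w4⟩ := exists_inv (Q := Q) (Q' := Q') (fun q hq => hq.elim (h.qsq q) (q2 q))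
    fun a => s7 (le_sup_right.trans (h.two_le a le_sup_left))
  have w5 : orderOf w ≠ 3 := fun a => z3 (a ▸ orderOf_dvd_natCard _ (z2 w1))
  have w6 : orderOf w ≠ 5 := fun a => h.n5 (a ▸ orderOf_dvd_natCard w)
  obtain ⟨A, a0, a1, a2⟩ := mod1 f4 (nK (hq.elim mem_sup_left mem_sup_right)) (nK w1) (hq.elim (h.qsq q) (q2 q)) w4
    (w2.odd_of_ne_two w3)
  have a3 : 16 ≤ Nat.card A := by
    have : ∀ f ∈ F, q * f = f * q → f ∈ A := fun f hf c => (a2 f hf).2 (by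
      rw [c, mul_inv_cancel_right, f4 f hf]; exact one_mem _)
    rcases hq with hq | hq
    exacts [f7.trans (card_le_of_le fun f hf => this f hf.1 (comm_of_sq h.qsq hq hf.2)),
      f8.trans (card_le_of_le fun f hf => this f hf.1 (comm_of_sq q2 hq hf.2))]
  have a4 := (Nat.modEq_iff_dvd' (card_le_of_le inf_le_left)).1 (modEq w2 rfl (nK w1)).symm
  have a5 : ¬ Nat.card F ≤ Nat.card (F ⊓ C1 w : Subgroup G) := fun a => by
    have a6 := fun f hf => (mem_C1.1 ((eq_of_le_of_card_ge inf_le_left a).ge (x := f) hf).2).symm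
    have a7 := cH b1 b2 (mem_C1.2 (a6 v1 (f1 b1)))
    have a8 := h.qsq _ ((h.ker (pow_mem a7 4)).1 (by
      rw [P.pow a7]
      refine (by decide +kernel : ∀ l : L7, l * s0 = s0 * l → l ^ 4 = 1) _ ?_
      rw [← s4, ← h.mul a7 s3, ← h.mul s3 a7, a6 s (f2 ⟨s1, s3⟩)]))
    rw [← pow_add] at a8
    exact w3 ((Nat.prime_dvd_prime_iff_eq w2 Nat.prime_two).1 (w2.dvd_of_dvd_pow (n := 3)
      (orderOf_dvd_of_pow_eq_one a8)))
  have := Fact.mk Nat.prime_two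
  obtain ⟨i, hi⟩ := IsPGroup.iff_card.1 (isPGroup_of_sq f4)
  obtain ⟨j, hj⟩ := IsPGroup.iff_card.1 (isPGroup_of_sq fun a (ha : a ∈ F ⊓ C1 w) => f4 a ha.1)
  obtain ⟨l, hl⟩ := IsPGroup.iff_card.1 (isPGroup_of_sq fun a ha => f4 a (a0 ha))
  rw [hi] at f9
  rw [hl] at a3
  rw [hi, hj] at a4 a5
  rw [hi, hj, hl, ← pow_mul, ← pow_add, Nat.pow_right_inj (by decide)] at a1
  have i1 : i ≤ 6 := (Nat.pow_le_pow_iff_right (a := 2) (by decide)).1 f9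
  have i2 : 4 ≤ l := (Nat.pow_le_pow_iff_right (a := 2) (by decide)).1 a3
  have i3 : j < i := not_le.1 fun a => a5 (Nat.pow_le_pow_right (by decide) a)
  have i4 : orderOf w ∣ 2 ^ 4 * (3 * 5) := by
    obtain ⟨rfl, rfl⟩ | ⟨rfl, rfl⟩ | ⟨rfl, rfl⟩ : i = 6 ∧ j = 2 ∨ i = 6 ∧ j = 4 ∨ i = 5 ∧ j = 3 := by omega
    all_goals exact a4.trans (by decide)
  rcases (Nat.Prime.dvd_mul w2).1 i4 with a | a
  · exact w3 ((Nat.prime_dvd_prime_iff_eq w2 Nat.prime_two).1 (w2.dvd_of_dvd_pow a))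
  · exact ((Nat.Prime.dvd_mul w2).1 a).elim (fun a => w5 ((Nat.prime_dvd_prime_iff_eq w2 Nat.prime_three).1 a))
      fun a => w6 ((Nat.prime_dvd_prime_iff_eq w2 Nat.prime_five).1 a)

end Cfsg.Lib.Apw
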