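import Cfsg.Agent.Apw.CMod

/-! The 2-local subgroup `2⁶.L₃(2)`: weak closure. -/

set_option autoImplicit false

namespace Cfsg.Lib.Apw.CC

open Subgroup Cfsg.Lib.Solv Cfsg.Lib.Known Cfsg.Lib.Known.G168
open scoped Pointwise

/-- The four-group normalised by `x0` containing `a0`. -/
def U0 : Subgroup L7 where
  carrier := {l | l = 1 ∨ l = a0 ∨ l = tab.el 114 ∨ l = tab.el 70}
  mul_mem' := by
    rintro _ _ (rfl | rfl | rfl | rfl) (rfl | rfl | rfl | rfl) <;> simp only [Set.mem_ofPred_eq] <;> decide +kernel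
  one_mem' := Or.inl rfl
  inv_mem' := by
    rintro _ (rfl | rfl | rfl | rfl) <;> simp only [Set.mem_ofPred_eq] <;> decide +kernel

instance : DecidablePred (· ∈ U0) := fun l =>
  inferInstanceAs (Decidable (l = 1 ∨ l = a0 ∨ l = tab.el 114 ∨ l = tab.el 70))

theorem card_U0 : Nat.card U0 = 4 := (GTab.card_subtype_eq_cnt (· ∈ U0)).trans (by decide +kernel)

theorem l7_ea {K : Subgroup L7} (h : ∀ l ∈ K, l * l = 1) :
    ∃ k, (∀ l ∈ K, k * l * k⁻¹ ∈ U0) ∨ ∀ l ∈ K, al (k * l * k⁻¹) ∈ U0 := by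
  by_cases h0 : ∀ l ∈ K, l = 1
  · exact ⟨1, Or.inl fun l hl => by rw [h0 l hl]; exact Or.inl (by simp)⟩
  push Not at h0
  obtain ⟨l1, h1, h2⟩ := h0
  obtain ⟨g, rfl⟩ := l7_sq (h _ h1) h2
  have c : ∀ l ∈ K, g⁻¹ * l * g * (g⁻¹ * l * g) = 1 ∧ g⁻¹ * l * g * s0 = s0 * (g⁻¹ * l * g) := fun l hl =>
    ⟨by simpa using conj_sq (h l hl) g⁻¹, by simpa [mul_assoc] using conj_comm g⁻¹ (comm_of_sq h hl h1)⟩
  by_cases h3 : ∀ l ∈ K, tab.el 23 * (g⁻¹ * l * g) * (tab.el 23)⁻¹ ∈ U0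
  · exact ⟨tab.el 23 * g⁻¹, Or.inl fun l hl => by simpa [mul_assoc] using h3 l hl⟩
  push Not at h3
  obtain ⟨l, hl, h3⟩ := h3
  refine ⟨tab.el 34 * g⁻¹, Or.inr fun l' hl' => ?_⟩
  have := (by decide +kernel : ∀ m : L7, m * m = 1 → m * s0 = s0 * m → ¬ tab.el 23 * m * (tab.el 23)⁻¹ ∈ U0 →
    ∀ m' : L7, m' * m' = 1 → m' * s0 = s0 * m' → m * m' = m' * m → al (tab.el 34 * m' * (tab.el 34)⁻¹) ∈ U0)
    _ (c l hl).1 (c l hl).2 h3 _ (c l' hl').1 (c l' hl').2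
    (by simpa [mul_assoc] using conj_comm g⁻¹ (comm_of_sq h hl hl'))
  simpa [mul_assoc] using this

theorem l7_card {K : Subgroup L7} (h : ∀ l ∈ K, l * l = 1) : Nat.card K ≤ 4 := by
  obtain ⟨k, e | e⟩ := l7_ea h <;> rw [← card_U0]
  · exact Nat.card_le_card_of_injective (fun l => (⟨_, e l l.2⟩ : U0)) fun a b e =>
      Subtype.ext ((MulAut.conj k).injective (congrArg Subtype.val e))
  · exact Nat.card_le_card_of_injective (fun l => (⟨_, e l l.2⟩ : U0)) fun a b e =>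
      Subtype.ext ((MulAut.conj k).injective (al.injective (congrArg Subtype.val e)))

variable {G : Type*} [Group G]

/-- The configuration. -/
structure LC (x σ y : G) (V H Q : Subgroup G) (φ : G → L7) : Prop extends LH x σ y V H Q φ where
  hc : Nat.card Q = 64
  hy : ∀ q ∈ Q, y * q = q * y → q = 1
  hV : V ≤ Q
  h4 : Nat.card V = 4

namespace LC

variable [Finite G] {x σ y : G} {V H Q : Subgroup G} {φ : G → L7} (h : LC x σ y V H Q φ)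
include h

omit [Finite G] in
theorem al : LC x σ y⁻¹ V H Q fun g => Apw.al (φ g) :=
  ⟨h.toLH.al, h.hc, fun q hq e => h.hy q hq ((Commute.inv_left_iff (a := y)).1 e), h.hV, h.h4⟩

theorem conj (g : G) : LC (g * x * g⁻¹) (g * σ * g⁻¹) (g * y * g⁻¹) (MulAut.conj g • V) (MulAut.conj g • H)
    (MulAut.conj g • Q) fun a => φ (g⁻¹ * a * g) :=
  ⟨h.toLH.conj g, (card_conj_smul g Q).trans h.hc, by
    rintro _ ⟨q, hq, rfl⟩ e
    rw [h.hy q hq (by simpa [mul_assoc] using conj_comm g⁻¹ e)]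
    simp, conj_smul_mono g h.hV,
    (card_conj_smul g V).trans h.h4⟩

omit [Finite G] in
theorem st {e e' z : G} (he : e ∈ H) (he' : e' ∈ H) (p : φ e = φ e') (hz : z ∈ Q) (c : e ∈ C1 z) : e' ∈ C1 z := by
  obtain ⟨q, hq, rfl⟩ := h.toPH.exists_of_eq he he' p
  exact mul_mem c (mem_C1.2 (comm_of_sq h.qsq hq hz))

theorem c0 {e : G} (he : e ∈ H) (h1 : e ∉ Q) (h2 : e * e ∈ Q) : Nat.card (Q ⊓ C1 e : Subgroup G) = 16 := by
  obtain ⟨κ, e1⟩ := l7_sq (l := φ e) (by rw [← h.mul he he, h.toPH.of_mem h2]) (mt (h.ker he).1 h1)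
  obtain ⟨k, hk, rfl⟩ := h.surj κ
  have h3 := mod4 h.toCI h.qsq (h.toPH.le_norm h.xH) (h.toPH.le_norm h.sH)
  rw [inf_eq_right.2 h.hV, h.hc, h.h4] at h3
  rw [← h.ps, ← h.toPH.conj hk h.sH] at e1
  have m := mul_mem (mul_mem hk h.sH) (inv_mem hk)
  rw [← Nat.pow_left_injective (n := 2) (by decide) (h3.trans (show _ = 16 ^ 2 by norm_num)),
    ← card_conj_smul k (Q ⊓ C1 σ), smul_inf, conj_smul_eq_of_mem_normalizer (h.toPH.le_norm hk),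
    conj_smul_centralizer_singleton]
  congr 2
  ext q
  exact and_congr_right fun hq => ⟨fun c => mem_C1.2 (mem_C1.1 (h.st he m e1.symm hq (mem_C1.2 (mem_C1.1 c).symm))).symm,
    fun c => mem_C1.2 (mem_C1.1 (h.st m he e1 hq (mem_C1.2 (mem_C1.1 c).symm))).symm⟩

omit [Finite G] in
theorem card_le {A : Subgroup G} (hA : A ≤ H) (h2 : ∀ a ∈ A, a * a = 1) :
    Nat.card A ≤ 4 * Nat.card (A ⊓ Q : Subgroup G) := by
  rw [h.toPH.card_eq hA]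
  refine Nat.mul_le_mul_right _ (l7_card fun l hl => ?_)
  obtain ⟨a, ha, h1, rfl⟩ := h.toPH.mem_img.1 hl
  rw [← h.mul h1 h1, h2 a ha, h.toPH.one]

theorem wc0 {g : G} (hF : MulAut.conj g • Q ≤ H) (hU : ∀ f ∈ MulAut.conj g • Q, φ f ∈ U0) :
    MulAut.conj g • Q ≤ Q := by
  have h' := h.conj g
  have P := h.toPH
  have hx : x ∈ MulAut.conj g • H → V ≤ MulAut.conj g • Q := fun hx v hv => by
    obtain ⟨k, hk, e⟩ := h.exists_conj h.xH (mem_cj.1 hx) (by simpa [h.ord] using ord_conj g⁻¹ x)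
    have := h.comm_of_norm (g := k * g⁻¹) (by simpa [mul_assoc] using e) hv
    rw [mem_cj, show g⁻¹ * v * g = k⁻¹ * v * k⁻¹⁻¹ by
      rw [show g⁻¹ * v * g = k⁻¹ * (k * g⁻¹ * v) * g by group, this]; group]
    exact P.conj_mem (inv_mem hk) (h.hV hv)
  have hn := h'.qnorm
  have hs := h'.qsq
  have hc := h'.hc
  clear h'
  generalize MulAut.conj g • Q = F at *
  generalize MulAut.conj g • H = H' at *
  by_contra hne
  obtain ⟨f0, f1, f2⟩ := SetLike.not_le_iff_exists.1 hne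
  have le : ∀ f ∈ F, F ⊓ Q ≤ Q ⊓ C1 f := fun f hf q hq => ⟨hq.2, mem_C1.2 (comm_of_sq hs hq.1 hf)⟩
  have c16 : ∀ f ∈ F, f ∉ Q → Nat.card (Q ⊓ C1 f : Subgroup G) = 16 := fun f a1 a2 =>
    h.c0 (hF a1) a2 (hs f a1 ▸ one_mem Q)
  have h1 := h.card_le hF hs
  have h2 := card_le_of_le (le f0 f1)
  have h3 := P.card_eq hF
  rw [c16 f0 f1 f2] at h2
  have cB : Nat.card (F ⊓ Q : Subgroup G) = 16 := by omega
  have h4 : P.img F = U0 := eq_of_le_of_card_ge (fun l hl => by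
    obtain ⟨a, a1, -, rfl⟩ := P.mem_img.1 hl
    exact hU a a1) (by rw [card_U0]; rw [hc, cB] at h3; omega)
  have hB : ∀ e ∈ H, φ e ∈ U0 → φ e ≠ 1 → ∀ q ∈ Q, q ∈ F ↔ e ∈ C1 q := fun e he a1 a2 q hq => by
    obtain ⟨f, b1, b2, b3⟩ := P.mem_img.1 (h4 ▸ a1)
    have b4 : f ∉ Q := fun b => a2 (b3 ▸ P.of_mem b)
    have b5 := eq_of_le_of_card_ge (le f b1) (by rw [c16 f b1 b4, cB])
    exact ⟨fun c => h.st b2 he b3 hq (mem_C1.2 (comm_of_sq hs b1 c)), fun c =>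
      (b5.ge ⟨hq, mem_C1.2 (mem_C1.1 (h.st he b2 b3.symm hq c)).symm⟩).1⟩
  obtain ⟨a, -, aH, pa⟩ := P.mem_img.1 (h4.ge (Or.inr (Or.inl rfl) : a0 ∈ U0))
  have hB' : ∀ q ∈ Q, q ∈ F ↔ a ∈ C1 q := hB a aH (pa ▸ Or.inr (Or.inl rfl)) (by rw [pa]; decide +kernel)
  have cj : ∀ {n e q : G}, e ∈ C1 q → n * e * n⁻¹ ∈ C1 (n * q * n⁻¹) := fun c => mem_C1.2 (conj_comm _ (mem_C1.1 c))
  have nB : ∀ n ∈ H, φ n * a0 * (φ n)⁻¹ ∈ U0 → ∀ q ∈ F ⊓ Q, n * q * n⁻¹ ∈ F ⊓ Q := fun n a1 a2 q hq =>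
    ⟨(hB (n * a * n⁻¹) (mul_mem (mul_mem a1 aH) (inv_mem a1)) (by rwa [P.conj a1 aH, pa]) (by
      rw [P.conj a1 aH, pa, Ne, conj_eq_one_iff]; decide +kernel) _ (P.conj_mem a1 hq.2)).2
      (cj ((hB' q hq.2).1 hq.1)), P.conj_mem a1 hq.2⟩
  have xB := nB x h.xH (by rw [h.px]; decide +kernel)
  have sB := nB σ h.sH (by rw [h.ps]; decide +kernel)
  have VF : V ≤ F := hx (hn x fun f hf => by
    by_cases a1 : f ∈ Q
    · exact (xB f ⟨hf, a1⟩).1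
    have a2 := mul_mem (mul_mem h.xH (hF hf)) (inv_mem h.xH)
    have a3 : φ (x * f * x⁻¹) ∈ U0 := by
      rw [P.conj h.xH (hF hf), h.px]
      exact (by decide +kernel : ∀ l ∈ U0, x0 * l * x0⁻¹ ∈ U0) _ (hU f hf)
    have a4 : φ (x * f * x⁻¹) ≠ 1 := by
      rw [P.conj h.xH (hF hf), Ne, conj_eq_one_iff, h.ker (hF hf)]; exact a1
    obtain ⟨f', b1, b2, b3⟩ := P.mem_img.1 (h4 ▸ a3)
    obtain ⟨q, hq, e⟩ := P.exists_of_eq b2 a2 b3
    have a5 := conj_sq (hs f hf) x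
    rw [e] at a5 ⊢
    exact mul_mem b1 ((hB f' b2 (b3 ▸ a3) (b3 ▸ a4) q hq).2
      (mem_C1.2 (comm_of_three (hs f' b1) (h.qsq q hq) a5))))
  have h5 := mod4 (N := F ⊓ Q) h.toCI (fun q hq => hs q hq.1) (mem_normalizer_fintype xB) (mem_normalizer_fintype sB)
  rw [inf_eq_right.2 (le_inf VF h.hV), cB, h.h4] at h5
  have h6 := Nat.pow_left_injective (n := 2) (by decide) (h5.trans (show _ = 8 ^ 2 by norm_num))
  obtain ⟨k, hk, pk⟩ := h.surj (tab.el 13)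
  have m := mul_mem (mul_mem hk h.xH) (inv_mem hk)
  have pm : φ (k * x * k⁻¹) = tab.el 13 * x0 * (tab.el 13)⁻¹ := by rw [P.conj hk h.xH, pk, h.px]
  have h7 := modEq (N := F ⊓ Q ⊓ C1 σ) Nat.prime_three ((ord_conj k x).trans h.ord) (mem_normalizer_fintype (by
    intro z hz
    have z1 := P.conj_mem m hz.1.2
    have z2 : σ ∈ C1 z := mem_C1.2 (mem_C1.1 hz.2).symm
    have z3 := (hB' z hz.1.2).1 hz.1.1
    generalize k * x * k⁻¹ = w at m pm z1 ⊢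
    have c := fun {e : G} (he : e ∈ H) => mul_mem (mul_mem m he) (inv_mem m)
    refine ⟨⟨(hB' _ z1).2 (h.st (c h.sH) aH ?_ z1 (cj z2)), z1⟩, mem_C1.2 (mem_C1.1 (h.st (c (mul_mem h.sH aH))
      h.sH ?_ z1 (cj (mul_mem z2 z3)))).symm⟩
    · rw [P.conj m h.sH, pm, h.ps, pa]; decide +kernel
    · rw [P.conj m (mul_mem h.sH aH), pm, h.mul h.sH aH, h.ps, pa]; decide +kernel))
  rw [h6] at h7
  obtain ⟨z, hz, z1⟩ := (F ⊓ Q ⊓ C1 σ ⊓ C1 (k * x * k⁻¹)).bot_or_exists_ne_one.resolve_left fun e => by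
    rw [e, card_bot] at h7
    exact absurd h7 (by decide)
  have z2 : k⁻¹ * z * k⁻¹⁻¹ ∈ V := h.mem_of_sq (by simpa [mul_assoc] using conj_comm k⁻¹ (mem_C1.1 hz.2).symm)
    (conj_sq (h.qsq z hz.1.1.2) _)
  have z3 : k * a * k⁻¹ ∈ C1 z := by simpa [mul_assoc] using cj (n := k) ((hB' _ (h.hV z2)).1 (VF z2))
  have z4 : y0 ∈ P.img (C1 z) := GTab.clos_sound _ [68, 130, (tab.el 13 * x0 * (tab.el 13)⁻¹).1,
    (tab.el 13 * a0 * (tab.el 13)⁻¹).1] (by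
      simp only [List.mem_cons, List.not_mem_nil, or_false, forall_eq_or_imp, forall_eq, GTab.el_val]
      exact ⟨⟨by decide, P.mem_img.2 ⟨σ, mem_C1.2 (mem_C1.1 hz.1.2).symm, h.sH, h.ps⟩⟩,
        ⟨by decide, P.mem_img.2 ⟨a, (hB' z hz.1.1.2).1 hz.1.1.1, aH, pa⟩⟩,
        ⟨by decide +kernel, P.mem_img.2 ⟨_, mem_C1.2 (mem_C1.1 hz.2).symm, m, pm⟩⟩, by decide +kernel,
        P.mem_img.2 ⟨_, z3, mul_mem (mul_mem hk aH) (inv_mem hk), by rw [P.conj hk aH, pk, pa]⟩⟩) _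
    (by decide +kernel)
  obtain ⟨e, e1, e2, e3⟩ := P.mem_img.1 z4
  exact z1 (h.hy z hz.1.1.2 (mem_C1.1 (h.st e2 h.yH (e3.trans h.py.symm) hz.1.1.2 e1)))

theorem wc {g : G} (hF : MulAut.conj g • Q ≤ H) : MulAut.conj g • Q = Q := by
  have P := h.toPH
  obtain ⟨κ, e⟩ := l7_ea (K := P.img (MulAut.conj g • Q)) fun l hl => by
    obtain ⟨a, ha, h1, rfl⟩ := P.mem_img.1 hl
    rw [← h.mul h1 h1, (h.conj g).qsq a ha, P.one]
  obtain ⟨k, hk, rfl⟩ := h.surj κ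
  have h1 : ∀ f ∈ MulAut.conj (k * g) • Q, ∃ f' ∈ MulAut.conj g • Q, f = k * f' * k⁻¹ := by
    rintro _ ⟨q, hq, rfl⟩
    exact ⟨_, cj_mem hq, by simp [mul_assoc]⟩
  have h2 : MulAut.conj (k * g) • Q ≤ H := fun f hf => by
    obtain ⟨f, a1, rfl⟩ := h1 f hf
    exact mul_mem (mul_mem hk (hF a1)) (inv_mem hk)
  have h3 : MulAut.conj (k * g) • Q ≤ Q := by
    rcases e with e | e
    · refine h.wc0 h2 fun f hf => ?_
      obtain ⟨f, a1, rfl⟩ := h1 f hf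
      exact P.conj hk (hF a1) ▸ e _ (P.mem_img.2 ⟨f, a1, hF a1, rfl⟩)
    · refine h.al.wc0 h2 fun f hf => ?_
      obtain ⟨f, a1, rfl⟩ := h1 f hf
      exact P.conj hk (hF a1) ▸ e _ (P.mem_img.2 ⟨f, a1, hF a1, rfl⟩)
  refine eq_of_le_of_card_ge ?_ (card_conj_smul g Q).ge
  rintro _ ⟨q, hq, rfl⟩
  simpa [mul_assoc] using P.conj_mem (inv_mem hk) (h3 (cj_mem hq))

end LC

end Cfsg.Lib.Apw.CC
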