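import Cfsg.Agent.Apw.Defs
import Cfsg.Agent.Char.Odd3Char
import Cfsg.Agent.Block.UniqDeg

/-! Character theory of the coset `x V`. -/

set_option autoImplicit false

namespace Cfsg.Lib.Apw

open Subgroup Finset Cfsg.Lib.Char Cfsg.Lib.Odd3
open scoped ComplexConjugate

theorem exists_eq_of_three {I : Type*} [Fintype I] {c d r : I → ℤ} {i₀ : I} (hc : c i₀ = 1)
    (hd : d i₀ = 1) (hr : r i₀ = 1) (hpos : ∀ i, 0 < d i) (h2 : ∑ i, c i * c i = 3)
    (h1 : ∑ i, c i * d i = 0) (h0 : ∑ i, c i * r i = 0) (h : ∑ i, (c i : ℚ) * (r i * r i / d i) = 0) :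
    ∃ k, k ≠ i₀ ∧ r k = d k := by
  classical
  rw [← add_sum_erase _ _ (mem_univ i₀), hc] at h2 h1 h0 h
  obtain ⟨j, hj, hj'⟩ : ∃ j ∈ univ.erase i₀, c j < 0 := by
    by_contra! h
    have := sum_nonneg fun i hi => mul_nonneg (h i hi) (hpos i).le
    omega
  rw [← add_sum_erase _ _ hj] at h2 h1 h0 h
  have h3 := sum_nonneg fun i (_ : i ∈ (univ.erase i₀).erase j) => mul_self_nonneg (c i)
  have h4 : c j = -1 := by nlinarith
  obtain ⟨k, hk, hk1, hk2⟩ := exists_single (s := (univ.erase i₀).erase j) (f := c) (by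
    rw [h4] at h2; omega)
  rw [← add_sum_erase _ _ hk, sum_eq_zero fun i hi => by rw [hk2 i hi]; simp] at h1 h0 h
  have h5 := hpos j
  have h6 := hpos k
  refine ⟨k, ne_of_mem_erase (mem_of_mem_erase hk), ?_⟩
  rcases Int.eq_one_or_neg_one_of_mul_eq_one hk1 with e | e <;> rw [h4, e, hd] at h1
  · have h7 : (0 : ℚ) < d k := by exact_mod_cast h6
    rw [h4, e, hr] at h0
    rw [h4, e, hr, hd, show d j = d k + 1 by omega, show r j = r k + 1 by omega] at h
    push_cast at h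
    field_simp at h
    exact_mod_cast sub_eq_zero.1 (pow_eq_zero_iff two_ne_zero |>.1
      (by linear_combination h : ((r k : ℚ) - d k) ^ 2 = 0))
  · omega

variable {G : Type*} [Group G] [Finite G] {x : G} {V : Subgroup G}

namespace Cl

variable (h : Cl x V)
include h

omit [Finite G] in
theorem xv_four {v : G} (hv : v ∈ V) : (x * v) ^ 4 = x := by
  rw [show 4 = 2 * 2 from rfl, pow_mul, pow_two, pow_two, h.xv_sq hv, h.inv_mul_inv]

theorem card_C1 {v : G} (hv : v ∈ V) : Nat.card (centralizer {x * v}) = 3 * Nat.card V := by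
  have e : centralizer {x * v} = C1 x := by
    ext c
    rw [mem_centralizer_singleton_iff, mem_C1]
    exact ⟨fun e => h.xv_four hv ▸ (Commute.pow_right e 4).eq, fun e =>
      h.cent_comm e.symm (by rw [mul_assoc, h.comm v hv])⟩
  rw [e, ← Nat.card_eq_of_bijective (fun p : Fin 3 × V => (⟨x ^ p.1.1 * p.2, mem_C1.2
    ((Commute.pow_left rfl _).mul_left (h.comm _ p.2.2).symm).eq⟩ : C1 x)) ⟨?_, ?_⟩]
  · simp
  · rintro ⟨i, u⟩ ⟨j, w⟩ e
    have e1 : x ^ i.1 * u = x ^ j.1 * w := congrArg Subtype.val e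
    have k : ∀ (i : ℕ) (u : V), (x ^ i * u) ^ 4 = x ^ i := fun i u => by
      rw [(Commute.pow_left (h.comm _ u.2) i).mul_pow, ← pow_mul, mul_comm, pow_mul,
        ← mul_one x, h.xv_four V.one_mem, mul_one, show 4 = 2 * 2 from rfl, pow_mul, pow_two (u : G),
        h.sq _ u.2, one_pow, mul_one]
    have e2 : x ^ i.1 = x ^ j.1 := by rw [← k i u, e1, k]
    rw [e2, mul_right_inj] at e1
    rw [pow_inj_mod, h.ord, Nat.mod_eq_of_lt i.2, Nat.mod_eq_of_lt j.2] at e2
    exact Prod.ext (Fin.ext e2) (Subtype.ext e1)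
  · rintro ⟨c, hc⟩
    obtain ⟨v, hv, e | e | e⟩ := h.cent c (mem_C1.1 hc).symm
    exacts [⟨(0, ⟨v, hv⟩), Subtype.ext (by simp [e])⟩, ⟨(1, ⟨v, hv⟩), Subtype.ext (by simp [e])⟩,
      ⟨(2, ⟨v, hv⟩), Subtype.ext (by simp [e, pow_two, h.mul_self])⟩]

omit [Finite G] in
theorem eq_of_isConj {v w : G} (hv : v ∈ V) (hw : w ∈ V) (e : IsConj (x * v) (x * w)) : v = w := by
  obtain ⟨k, e⟩ := isConj_iff.1 e
  have e1 : k * x * k⁻¹ = x := by
    conv_lhs => rw [← h.xv_four hv, ← conj_pow, e, h.xv_four hw]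
  rw [h.cent_comm (mul_inv_eq_iff_eq_mul.1 e1).symm (d := x * v) (by rw [mul_assoc, h.comm v hv]),
    mul_inv_cancel_right] at e
  exact mul_left_cancel e

theorem exists_inv [IsSimpleGroup G] (hna : ¬ IsMulCommutative G) : ∃ g, g * x * g⁻¹ = x⁻¹ := by
  have := Fact.mk Nat.prime_three
  by_contra! k
  obtain ⟨P, hP⟩ := (IsPGroup.of_card (p := 3) (n := 1) (G := zpowers x)
    (by rw [Nat.card_zpowers, h.ord]; rfl)).exists_le_sylow
  have e : (P : Subgroup G) = zpowers x := (eq_of_le_of_card_ge hP (by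
    obtain ⟨n, hn⟩ := IsPGroup.iff_card.1 P.isPGroup'
    have h1 : ¬ 3 ^ 2 ∣ 3 ^ n := fun e => h.n9 (e.trans (hn ▸ card_subgroup_dvd_card _))
    rw [Nat.pow_dvd_pow_iff_le_right (by norm_num)] at h1
    rw [Nat.card_zpowers, h.ord, hn]
    exact Nat.pow_le_pow_right (n := 3) (by norm_num) (by omega : n ≤ 1))).symm
  have hP' : normalizer (P : Set G) ≤ centralizer (P : Set G) := fun g hg => by
    obtain ⟨n, hn⟩ : _ ∈ zpowers x := e ▸ (mem_normalizer_iff.1 hg x).1 (hP (mem_zpowers x))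
    have e1 := (h.eq_of_three (y := g * x * g⁻¹) (by rw [ord_conj, h.ord]) (by
      rw [← hn]; exact (Commute.zpow_right (Commute.refl x) n).eq)).resolve_right (k g)
    intro y hy
    obtain ⟨n, rfl⟩ : y ∈ zpowers x := e ▸ hy
    exact (Commute.zpow_left (mul_inv_eq_iff_eq_mul.1 e1).symm n).eq
  have hc := MonoidHom.ker_transferSylow_isComplement' P hP'
  rcases (MonoidHom.transferSylow P hP').normal_ker.eq_bot_or_eq_top with l | l <;> rw [l, e] at hc
  · rw [isComplement'_bot_left] at hc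
    exact hna ⟨⟨fun a b => by
      obtain ⟨m, rfl⟩ := hc.ge (mem_top a)
      obtain ⟨n, rfl⟩ := hc.ge (mem_top b)
      exact zpow_mul_comm _ _ _⟩⟩
  · rw [isComplement'_top_left, zpowers_eq_bot] at hc
    exact h.ne_one hc

theorem exists_conj_inv [IsSimpleGroup G] (hna : ¬ IsMulCommutative G) {s : G} (hs : orderOf s = 2) :
    ∃ τ, IsConj s τ ∧ τ * x * τ⁻¹ = x⁻¹ := by
  classical
  have := Fintype.ofFinite V
  obtain ⟨g, hg⟩ := h.exists_inv hna
  have hn : (Nat.card V : ℂ) ≠ 0 := by exact_mod_cast Nat.card_pos.ne'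
  have hx : x ∈ normalizer (V : Set G) := mem_normalizer_fintype fun v => h.conj_mem (Or.inl (by group))
  choose a ha using fun χ : IrrCharacter G => (Block.UD.isCharacter_avg' χ.2.isCharacter V _
    le_rfl).isGeneralizedCharacter.exists_int_of_isConj_pow (g := ⟨x, hx⟩) fun m hm => by
      rw [← orderOf_coe, h.ord] at hm
      have e : x ^ m = x ^ (m % 3) := by rw [← h.ord, pow_mod_orderOf]
      have : m % 3 = 1 ∨ m % 3 = 2 := by
        have := (Nat.Prime.coprime_iff_not_dvd Nat.prime_three).1 hm.symm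
        omega
      rcases this with l | l <;> rw [l] at e
      · exact (Subtype.ext (e.trans (pow_one x)) : (⟨x, hx⟩ : normalizer (V : Set G)) ^ m = ⟨x, hx⟩).symm ▸
          IsConj.refl _
      · exact isConj_iff.2 ⟨⟨g, mem_normalizer_fintype fun v => h.conj_mem (Or.inr hg)⟩,
          Subtype.ext (hg.trans (e.trans ((pow_two x).trans h.mul_self)).symm)⟩
  have ha' : ∀ χ : IrrCharacter G, (a χ : ℂ) = (Nat.card V : ℂ)⁻¹ * ∑ v : V, conj (χ.1 (x * v)) :=
    fun χ => by simpa using (congrArg conj (ha χ)).symm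
  have key : ∀ f : IrrCharacter G → ℂ, ∑ χ, a χ * f χ =
      (Nat.card V : ℂ)⁻¹ * ∑ v : V, ∑ χ, f χ * conj (χ.1 (x * v)) := fun f => by
    simp only [ha', mul_sum, sum_mul]
    rw [sum_comm]
    exact sum_congr rfl fun _ _ => sum_congr rfl fun _ _ => by ring
  have orth : ∀ {y c}, Col y c → ¬ 3 ∣ orderOf y → ∑ χ, a χ * c χ = 0 := fun {y c} k l => by
    have := key fun χ => χ.1 y
    rw [sum_eq_zero fun v _ => sum_irr_mul_conj_of_not_isConj fun e => l (by
      obtain ⟨b, e⟩ := isConj_iff.1 e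
      rw [← ord_conj b, e]; exact h.three_dvd v.2), mul_zero] at this
    simp only [k _] at this
    exact_mod_cast this
  obtain ⟨d, hd, hpos⟩ := exists_deg G
  obtain ⟨r, hr⟩ := exists_col (a := s) fun m hm => by
    rw [hs] at hm
    rw [← pow_mod_orderOf, hs, Nat.odd_iff.1 (Nat.coprime_two_right.1 hm), pow_one]
  by_contra! k
  obtain ⟨χ, k1, k2⟩ := exists_eq_of_three (c := a) (i₀ := prin G) (by
      have := ha (prin G)
      simp only [prin, sum_const, card_univ, ← Nat.card_eq_fintype_card, nsmul_eq_mul, mul_one,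
        inv_mul_cancel₀ hn] at this
      exact_mod_cast this.symm) hd.prin hr.prin hpos (by
      have := key fun χ => a χ
      rw [sum_congr rfl (g := fun _ : V => (3 : ℂ)) fun v _ => ?_, sum_const, card_univ,
        ← Nat.card_eq_fintype_card, nsmul_eq_mul, inv_mul_cancel_left₀ hn] at this
      · exact_mod_cast this
      · simp only [← ha, mul_assoc, ← mul_sum, sum_mul]
        rw [sum_comm, sum_eq_single v (fun w _ e => sum_irr_mul_conj_of_not_isConj fun l =>
          e (Subtype.ext (h.eq_of_isConj w.2 v.2 l))) (by simp),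
          sum_irr_mul_conj_of_isConj (IsConj.refl _), h.card_C1 v.2]
        push_cast
        field_simp)
    (orth hd (by simp)) (orth hr (by rw [hs]; norm_num)) (by
      have := key fun χ => χ.1 s * χ.1 s / χ.1 1
      rw [sum_eq_zero fun (v : V) _ => ?_, mul_zero] at this
      · simp only [hr _, hd _] at this
        exact_mod_cast this
      · have e := card_isConj_mul_eq s s (x * v)
        have e0 : IsEmpty {p : G × G // IsConj s p.1 ∧ IsConj s p.2 ∧ p.1 * p.2 = x * v} := ⟨by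
          rintro ⟨⟨s1, s2⟩, l1, l2, l3⟩
          obtain ⟨b, rfl⟩ := isConj_iff.1 l1
          obtain ⟨c, rfl⟩ := isConj_iff.1 l2
          refine k _ l1 ?_
          have m1 := inv_eq_of_mul_eq_one_right (conj_sq (sq_of_ord hs) b)
          have m2 := inv_eq_of_mul_eq_one_right (conj_sq (sq_of_ord hs) c)
          rw [← h.xv_four v.2, ← conj_pow, ← inv_pow, ← l3]
          generalize b * s * b⁻¹ = s1, c * s * c⁻¹ = s2 at m1 m2
          rw [mul_inv_rev, m2, m1, ← mul_assoc, mul_eq_one_iff_inv_eq.2 m1, one_mul]⟩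
        have e1 : (Nat.card {y // IsConj s y} : ℂ) ≠ 0 := by
          have : Nonempty {y // IsConj s y} := ⟨⟨s, IsConj.refl s⟩⟩
          exact_mod_cast Nat.card_pos.ne'
        have e2 : (Nat.card G : ℂ) ≠ 0 := by exact_mod_cast Nat.card_pos.ne'
        rw [Nat.card_of_isEmpty, Nat.cast_zero, eq_comm, mul_eq_zero_iff_left (by positivity)] at e
        simpa only [div_mul_eq_mul_div] using e)
  have l : s ∈ charKer χ.1 := χ.2.mem_charKer_iff.2 (by rw [hr, hd, k2])
  rcases χ.2.charKer_normal.eq_bot_or_eq_top with e | e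
  · exact ne_of_ord hs (mem_bot.1 (e ▸ l))
  · exact k1 (Subtype.ext (χ.2.charKer_eq_top_iff.1 e))

omit [Finite G] in
theorem isConj_of_inv {σ g : G} (s2 : σ * σ = 1) (sx : σ * x * σ⁻¹ = x⁻¹) (hg : g * x * g⁻¹ = x⁻¹) :
    ∃ v ∈ V, IsConj g (σ * v) := by
  have e1 : σ * x = x⁻¹ * σ := mul_inv_eq_iff_eq_mul.1 sx
  have e2 : σ * x⁻¹ = x * σ := by rw [← mul_inv_eq_iff_eq_mul, ← conj_inv, sx, inv_inv]
  obtain ⟨v, hv, e⟩ := h.cent (σ * g) (by
    calc x * (σ * g) = σ * (x⁻¹ * g) := by rw [← mul_assoc, ← e2, mul_assoc]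
      _ = σ * g * x := by rw [← hg]; group)
  have e0 : g = σ * (σ * g) := by rw [← mul_assoc, s2, one_mul]
  refine ⟨v, hv, ?_⟩
  rcases e with e | e | e <;> rw [e] at e0
  · exact e0 ▸ IsConj.refl _
  · refine isConj_iff.2 ⟨x⁻¹, ?_⟩
    rw [e0, inv_inv, ← mul_assoc, ← mul_assoc, ← e1, mul_assoc, ← h.comm v hv]
    calc σ * x * x * (x * v) = σ * (x * x * x) * v := by group
      _ = _ := by rw [h.cube, mul_one]
  · refine isConj_iff.2 ⟨x, ?_⟩
    rw [e0, ← mul_assoc, ← mul_assoc, ← e2, mul_assoc, ← h.comm' hv]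
    calc σ * x⁻¹ * x⁻¹ * (x⁻¹ * v) = σ * (x * x * x)⁻¹ * v := by group
      _ = _ := by rw [h.cube, inv_one, mul_one]

end Cl

theorem exists_sn [IsSimpleGroup G] (hna : ¬ IsMulCommutative G) (h : Cl x V) : ∃ σ, Sn x σ V := by
  have := Fact.mk Nat.prime_two
  obtain ⟨g, hg⟩ := h.exists_inv hna
  obtain ⟨s, hs⟩ := exists_prime_orderOf_dvd_card' (G := G) 2 (by
    by_contra k
    have h1 : g ∈ zpowers (g ^ 2) := mem_zpowers_pow_iff.2 ((Nat.Prime.coprime_iff_not_dvd
      Nat.prime_two).2 fun l => k (l.trans (orderOf_dvd_natCard g)))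
    have h2 : g ^ 2 ∈ C1 x := mem_C1.2 (mul_inv_eq_iff_eq_mul.1 (by
      rw [pow_two, mul_inv_rev, show g * g * x * (g⁻¹ * g⁻¹) = g * (g * x * g⁻¹) * g⁻¹ by group, hg,
        ← conj_inv, hg, inv_inv]))
    rw [mem_C1.1 (zpowers_le_of_mem h2 h1), mul_inv_cancel_right] at hg
    exact h.ne_inv hg)
  obtain ⟨σ, h1, sx⟩ := h.exists_conj_inv hna hs
  have s2 : σ * σ = 1 := by
    obtain ⟨b, rfl⟩ := isConj_iff.1 h1
    exact conj_sq (sq_of_ord hs) b
  have invl : ∀ t, orderOf t = 2 → ∃ v ∈ V, IsConj t (σ * v) := fun t ht => by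
    obtain ⟨τ, k1, k2⟩ := h.exists_conj_inv hna ht
    obtain ⟨v, hv, e⟩ := h.isConj_of_inv s2 sx k2
    exact ⟨v, hv, k1.trans e⟩
  refine ⟨σ, ⟨h, s2, sx, fun w hw => ?_⟩, (commutator_normal ⊤ ⊤).eq_bot_or_eq_top.resolve_left
    fun e => hna ⟨⟨fun a b => commutatorElement_eq_one_iff_mul_comm.1
      (mem_bot.1 (e ▸ commutator_mem_commutator (mem_top a) (mem_top b)))⟩⟩, invl⟩
  by_contra k
  have si := inv_eq_of_mul_eq_one_right s2
  obtain ⟨w', hw'⟩ : ∃ w', w' = σ * w * σ⁻¹ := ⟨_, rfl⟩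
  have m1 : w' ∈ V := hw' ▸ h.conj_mem (Or.inr sx) hw
  have m2 : σ * w' * σ⁻¹ = w := by
    rw [hw', si, show σ * (σ * w * σ) * σ = σ * σ * w * (σ * σ) by group, s2, one_mul, mul_one]
  have m3 : w ≠ w' := fun e => k (mul_inv_eq_iff_eq_mul.1 (hw'.symm.trans e.symm))
  have m4 : w ≠ 1 := by rintro rfl; simp at k
  have m5 : w' ≠ 1 := by rintro rfl; simp [m4.symm] at m2
  have m6 : w * w' ≠ 1 := fun e => m3 (by rw [← mul_one w, ← h.sq w' m1, ← mul_assoc, e, one_mul])
  have all : ∀ t, orderOf t = 2 → IsConj t σ := fun t ht => by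
    obtain ⟨u, hu, e⟩ := invl t ht
    have e1 : σ * u * σ⁻¹ = u := by
      obtain ⟨b, e⟩ := isConj_iff.1 e
      have := conj_sq (sq_of_ord ht) b
      rw [e, ← mul_assoc] at this
      rw [si, eq_inv_of_mul_eq_one_left this, inv_eq_of_mul_eq_one_right (h.sq u hu)]
    rcases h.cases hw m1 m4 m5 m3 hu with rfl | rfl | rfl | rfl
    · simpa using e
    · exact absurd (e1.symm.trans hw'.symm) m3
    · exact absurd (m2.symm.trans e1) m3
    · refine e.trans (isConj_iff.2 ⟨w, ?_⟩)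
      rw [inv_eq_of_mul_eq_one_right (h.sq w hw), h.vcomm hw m1, hw', si,
        show w * (σ * (σ * w * σ * w)) * w = w * (σ * σ) * w * σ * (w * w) by group, s2, h.sq w hw,
        mul_one, mul_one, h.sq w hw, one_mul]
  have hz := V.mul_mem hw m1
  obtain ⟨g, e⟩ := isConj_iff.1 ((all _ (ord_two (h.sq _ hz) m6)).trans (all w (ord_two (h.sq w hw) m4)).symm)
  obtain ⟨b, hb, e'⟩ := h.exists_conj (K := C1 w) (mem_C1.2 (h.comm _ hw)) (y := g * x * g⁻¹)
    (mem_C1.2 (by rw [← e, conj_mul, conj_mul, h.comm _ hz])) (by rw [ord_conj, h.ord])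
  have e1 : b * g * (w * w') * (b * g)⁻¹ = w := by
    rw [show b * g * (w * w') * (b * g)⁻¹ = b * (g * (w * w') * g⁻¹) * b⁻¹ by group, e, mem_C1.1 hb,
      mul_inv_cancel_right]
  have fix : ∀ n, n * x * n⁻¹ = x → n * (w * w') * n⁻¹ = w * w' := fun n l => by
    rw [h.cent_comm (mul_inv_eq_iff_eq_mul.1 l).symm (h.comm _ hz), mul_inv_cancel_right]
  have e2 : b * g * x * (b * g)⁻¹ = b * (g * x * g⁻¹) * b⁻¹ := by group
  rw [← e2] at e'
  generalize b * g = n at e' e1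
  rcases e' with e' | e'
  · exact m5 (mul_eq_left.1 ((fix n e').symm.trans e1))
  · have := fix (σ * n) (by
      rw [show σ * n * x * (σ * n)⁻¹ = σ * (n * x * n⁻¹) * σ⁻¹ by group, e', ← conj_inv, sx, inv_inv])
    rw [show σ * n * (w * w') * (σ * n)⁻¹ = σ * (n * (w * w') * n⁻¹) * σ⁻¹ by group, e1, ← hw'] at this
    exact m4 (mul_eq_right.1 this.symm)

end Cfsg.Lib.Apw
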