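import Cfsg.Agent.Apw.CompB1
import Cfsg.Agent.Local.InvCent

/-! The centraliser `2 × L₂(7)` or `2 × PGL₂(7)` is impossible. -/

set_option autoImplicit false
set_option linter.unusedSectionVars false

namespace Cfsg.Lib.Apw

open Subgroup Cfsg.Lib.Solv Cfsg.Lib.Known Cfsg.Lib.Known.G168 Cfsg.Lib.Trans
open scoped commutatorElement

variable {G : Type*} [Group G]

/-- The endomorphism of the centraliser of `s0` with given images of `a0` and `b0`. -/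
def FD (a1 b1 l : L7) : L7 :=
  if l = 1 then 1 else if l = s0 then s0 else if l = a0 then a1 else if l = a0 * s0 then a1 * s0
  else if l = b0 then b1 else if l = b0 * s0 then b1 * s0 else if l = a0 * b0 then a1 * b1
  else b1 * a1

theorem tabB : ∀ a1, P0 a1 → ∀ b1, P0 b1 → FD a1 b1 a1 = a0 → FD a1 b1 b1 = b0 →
    ∀ d, d * s0 = s0 * d → s0 * FD a1 b1 d * d = 1 → a1 = a0 * s0 ∧ b1 = b0 * s0 ∨
      FD a1 b1 (d * a0 * d⁻¹) = a0 * s0 ∧ FD a1 b1 (d * b0 * d⁻¹) = b0 * s0 := by decide +kernel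

theorem tabA : ∀ d, d * s0 = s0 * d → (d = 1 ∨ d = s0) ∨ P0 d ∨
    d * a0 * d⁻¹ = a0 * s0 ∧ P0 (d * a0) := by decide +kernel

theorem tabP : ∀ p, P0 p → FD (a0 * s0) (b0 * s0) p = p * s0 := by decide +kernel

theorem tabQ : ∀ p, p * s0 = s0 * p → p * p = 1 → s0 * p ≠ 1 → s0 * p ≠ s0 → P0 (s0 * p) := by
  decide +kernel

theorem tabD : ∀ a1, P0 a1 → ∀ b1, P0 b1 → ∀ d, FD a1 b1 d * s0 = s0 * FD a1 b1 d := by
  decide +kernel

/-- Extension of a subgroup containing all commutators by an element with square inside. -/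
theorem ext2 {A S : Subgroup G} (hA : A ≤ S) (hc : ∀ s ∈ S, ∀ t ∈ S, ⁅s, t⁆ ∈ A) {p : G}
    (hp : p ∈ S) (h2 : p * p ∈ A) :
    ∃ K, A ≤ K ∧ K ≤ S ∧ p ∈ K ∧ ∀ k ∈ K, k ∈ A ∨ p * k ∈ A := by
  have n : ∀ s ∈ S, ∀ a ∈ A, s * a * s⁻¹ ∈ A := fun s hs a ha => by
    simpa [commutatorElement_def] using mul_mem (hc s hs a (hA ha)) ha
  refine ⟨⟨⟨⟨{k | k ∈ A ∨ p * k ∈ A}, ?_⟩, Or.inl (one_mem _)⟩, ?_⟩, fun a ha => Or.inl ha, ?_,
    Or.inr h2, fun k hk => hk⟩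
  · rintro x y (hx | hx) (hy | hy)
    · exact Or.inl (mul_mem hx hy)
    · right; simpa [mul_assoc] using mul_mem (n p hp x hx) hy
    · right; simpa [mul_assoc] using mul_mem hx hy
    · left
      simpa [mul_assoc] using mul_mem (mul_mem (n _ (inv_mem hp) _ hx) (inv_mem h2)) hy
  · rintro x (hx | hx)
    · exact Or.inl (inv_mem hx)
    · right
      simpa [mul_assoc] using mul_mem (n p hp _ (inv_mem hx)) h2
  · rintro x (hx | hx)
    · exact hA hx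
    · simpa using mul_mem (inv_mem hp) (hA hx)

namespace CP

variable {x σ v : G} {V : Subgroup G} {ι : L7 →* G} (h : CP x σ V v ι)
include h

theorem mem_D {d : G} : d ∈ ι.range ⊓ C1 σ ↔ ∃ l, l * s0 = s0 * l ∧ d = ι l := by
  constructor
  · rintro ⟨⟨l, rfl⟩, e⟩
    exact ⟨l, h.inj (by rw [map_mul, map_mul, h.is]; exact mem_C1.1 e), rfl⟩
  · rintro ⟨l, e, rfl⟩
    exact ⟨⟨l, rfl⟩, mem_C1.2 (by rw [← h.is, ← map_mul, ← map_mul, e])⟩

theorem D_le : ι.range ⊓ C1 σ ≤ C1 v ⊓ C1 σ := by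
  rintro _ ⟨⟨l, rfl⟩, e⟩
  exact ⟨mem_C1.2 (h.vc l).symm, e⟩

theorem V_le : V ≤ C1 v ⊓ C1 σ := fun u hu =>
  ⟨mem_C1.2 (h.vcomm hu h.hv), mem_C1.2 (h.sv u hu).symm⟩

theorem mem_T {t : G} (ht : t ∈ C1 v ⊓ C1 σ) : ∃ u ∈ V, ∃ l, l * s0 = s0 * l ∧ t = u * ι l := by
  obtain ⟨u, hu, l, rfl⟩ := h.cover t (mem_C1.1 ht.1)
  obtain ⟨k, e, e'⟩ := h.mem_D.1
    ⟨⟨l, rfl⟩, (mul_mem_cancel_left (mem_inf.1 (h.V_le hu)).2).1 (mem_inf.1 ht).2⟩
  exact ⟨u, hu, k, e, by rw [e']⟩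

theorem norm_D {t d : G} (ht : t ∈ C1 v ⊓ C1 σ) (hd : d ∈ ι.range ⊓ C1 σ) :
    t * d * t⁻¹ ∈ ι.range ⊓ C1 σ := by
  refine mem_inf.2
    ⟨?_, mul_mem (mul_mem (mem_inf.1 ht).2 (mem_inf.1 hd).2) (inv_mem (mem_inf.1 ht).2)⟩
  obtain ⟨u, hu, l, -, rfl⟩ := h.mem_T ht
  obtain ⟨k, -, rfl⟩ := h.mem_D.1 hd
  obtain ⟨m, e⟩ := h.norm u hu (l * k * l⁻¹)
  exact ⟨m, by rw [← e, map_mul, map_mul, map_inv]; group⟩

theorem T_two : IsPGroup 2 ↥(C1 v ⊓ C1 σ) := by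
  rintro ⟨t, ht⟩
  refine ⟨3, Subtype.ext ?_⟩
  have h2 := mul_mem ht ht
  obtain ⟨u, hu, l, -, rfl⟩ := h.mem_T ht
  obtain ⟨l', e⟩ := h.norm u hu l
  rw [h.sq_mem hu e] at h2
  obtain ⟨k, e1, e2⟩ := h.mem_D.1 ⟨⟨_, rfl⟩, (mem_inf.1 h2).2⟩
  show (u * ι l) ^ (2 * 4) = 1
  rw [pow_mul, pow_two, h.sq_mem hu e, e2, ← map_pow, l7_four e1, map_one]

variable [Finite G]

theorem T_syl : IsSylowIn 2 (C1 v ⊓ C1 σ) (C1 v) := by
  have := Fact.mk Nat.prime_two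
  refine isSylowIn_of_maximal inf_le_left h.T_two fun Q hQ h1 h2 q hq => ?_
  obtain ⟨u, hu, l, rfl⟩ := h.cover q (mem_C1.1 (h2 hq))
  refine mul_mem (h.V_le hu) (h.D_le (h.mem_D.2 ⟨l, ?_, rfl⟩))
  by_contra e
  obtain ⟨d, e1, e2⟩ := l7_odd e
  have m : ι (d * l) ∈ Q := by
    rw [map_mul]
    exact mul_mem (h1 (h.D_le (h.mem_D.2 ⟨d, e1, rfl⟩))) ((mul_mem_cancel_left (h1 (h.V_le hu))).1 hq)
  obtain ⟨k, hk⟩ := hQ ⟨_, m⟩
  have e3 : (d * l) ^ 2 ^ k = 1 := h.inj (by rw [map_pow, map_one]; exact congrArg Subtype.val hk)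
  have e4 : d * l = 1 := by
    have := pow_gcd_eq_one.2 ⟨e2, e3⟩
    rwa [Nat.Coprime.pow_right k (by norm_num : Nat.Coprime 21 2), pow_one] at this
  apply e
  rw [eq_inv_of_mul_eq_one_right e4]
  exact (Commute.inv_left e1).eq

end CP

/-- The configuration inside a Sylow 2-subgroup `S`. -/
structure CS (x σ : G) (V : Subgroup G) (v : G) (ι : L7 →* G) (S : Subgroup G) : Prop
    extends CP x σ V v ι where
  hf : ∀ u ∈ V, (∀ l, u * ι l = ι l * u) → u = 1 ∨ u = v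
  two : IsPGroup 2 S
  odd : ¬ 2 ∣ S.index
  le : C1 v ⊓ C1 σ ≤ S
  inf : ∀ s ∈ S, s * v = v * s → s ∈ C1 v ⊓ C1 σ
  idx : Local.IdxLeTwo (C1 v ⊓ C1 σ) S

theorem CP.exists_CS [Finite G] {x σ v : G} {V : Subgroup G} {ι : L7 →* G} (h : CP x σ V v ι)
    (hf : ∀ u ∈ V, (∀ l, u * ι l = ι l * u) → u = 1 ∨ u = v) : ∃ S, CS x σ V v ι S := by
  have := Fact.mk Nat.prime_two
  obtain ⟨S, hS⟩ := h.T_two.exists_le_sylow
  refine ⟨S, h, hf, S.isPGroup', S.not_dvd_index, hS, fun s hs e =>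
    (h.T_syl.eq_inf S.isPGroup' hS).le ⟨hs, mem_C1.2 e⟩, Local.idxLeTwo_of_relIndex ?_⟩
  have e1 := relIndex_mul_index hS
  have e2 := relIndex_mul_index (inf_le_left : C1 v ⊓ C1 σ ≤ C1 v)
  have e3 := h.index_C hf
  have e4 := h.T_syl.not_dvd
  have e5 := S.not_dvd_index
  obtain ⟨k, hk⟩ := S.isPGroup'.index ((C1 v ⊓ C1 σ).subgroupOf S)
  change (C1 v ⊓ C1 σ).relIndex S = _ at hk
  rw [← e1, hk] at e2
  rw [hk]
  generalize (C1 v ⊓ C1 σ).relIndex (C1 v) = m at e2 e4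
  obtain ⟨n, hn⟩ : ∃ n, (C1 v).index = 2 * (2 * n + 1) := ⟨(C1 v).index / 4, by omega⟩
  rw [hn] at e2
  rcases k with _ | _ | k
  · exact absurd ⟨m * (2 * n + 1), by rw [pow_zero, one_mul] at e2; rw [← e2]; ring⟩ e5
  · rfl
  · have : 2 ∣ m * (2 * n + 1) := ⟨2 ^ k * (S : Subgroup G).index, by
      apply Nat.eq_of_mul_eq_mul_left two_pos
      calc _ = m * (2 * (2 * n + 1)) := by ring
        _ = _ := by rw [e2]; ring⟩
    rcases (Nat.Prime.dvd_mul Nat.prime_two).1 this with e | e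
    exacts [absurd e e4, by omega]

namespace CS

variable [Finite G] {x σ v : G} {V S : Subgroup G} {ι : L7 →* G} (h : CS x σ V v ι S)
include h

theorem nT {g t : G} (hg : g ∈ S) (ht : t ∈ C1 v ⊓ C1 σ) : g * t * g⁻¹ ∈ C1 v ⊓ C1 σ :=
  h.idx.conj_mem hg (h.le ht) ht

theorem vT : v ∈ C1 v ⊓ C1 σ := h.V_le h.hv

theorem iT {l : L7} (e : l * s0 = s0 * l) : ι l ∈ C1 v ⊓ C1 σ := h.D_le (h.mem_D.2 ⟨l, e, rfl⟩)

theorem inT {m : G} (hm : m ∈ C1 v ⊓ C1 σ) (e : IsConj v m) :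
    ∃ l, l * s0 = s0 * l ∧ l * l = 1 ∧ m = v * ι l := by
  obtain ⟨l, h2, rfl⟩ := h.K1 h.hf (mem_C1.1 hm.1) e
  obtain ⟨k, e1, e2⟩ := h.mem_D.1
    ⟨⟨l, rfl⟩, (mul_mem_cancel_left (mem_inf.1 h.vT).2).1 (mem_inf.1 hm).2⟩
  exact ⟨l, h.inj e2 ▸ e1, h2, rfl⟩

theorem gv {g : G} (hg : g ∈ S) (hg' : g ∉ C1 v ⊓ C1 σ) : g * v * g⁻¹ = v * σ := by
  obtain ⟨l, -, -, e⟩ := h.inT (h.nT hg h.vT) (isConj_conj g v)
  have k : ∀ d, d * s0 = s0 * d → l * d = d * l := fun d hd => h.inj (by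
    have e1 := conj_comm g (mem_C1.1 (mem_inf.1 (h.nT (inv_mem hg) (h.iT hd))).1)
    rw [e, show g * (g⁻¹ * ι d * g⁻¹⁻¹) * g⁻¹ = ι d by group, ← mul_assoc, ← h.vc, mul_assoc,
      mul_assoc] at e1
    rw [map_mul, map_mul]
    exact (mul_left_cancel e1).symm)
  rw [e, l7_Z (k _ P0_a.1) (k _ P0_b.1) ?_, h.is]
  rintro rfl
  exact hg' (h.inf g hg (by rw [← mul_inv_eq_iff_eq_mul, e, map_one, mul_one]))

theorem gs {g : G} (hg : g ∈ S) : g * σ * g⁻¹ = σ := by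
  by_cases hg' : g ∈ C1 v ⊓ C1 σ
  · rw [mem_C1.1 (mem_inf.1 hg').2]; group
  · have e1 := h.gv hg hg'
    have e2 := mem_C1.1 (mem_inf.1 (h.idx.mul_self_mem hg)).1
    have e3 : v * σ * (g * σ * g⁻¹) = v := by
      calc _ = g * (g * v * g⁻¹) * g⁻¹ := by rw [← e1, conj_mul, e1]
        _ = g * g * v * (g * g)⁻¹ := by group
        _ = v := by rw [e2]; group
    calc g * σ * g⁻¹ = σ * v * (v * σ * (g * σ * g⁻¹)) := by
          rw [← mul_assoc, mul_assoc σ, ← mul_assoc v, h.vv, one_mul, h.s2, one_mul]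
      _ = σ * v * v := by rw [e3]
      _ = σ := by rw [mul_assoc, h.vv, mul_one]

theorem gP {g : G} (hg : g ∈ S) (hg' : g ∉ C1 v ⊓ C1 σ) {p : L7} (hp : P0 p) :
    ∃ q, P0 q ∧ g * ι p * g⁻¹ = ι q := by
  obtain ⟨l, e1, e2, e⟩ := h.inT (h.nT hg (mul_mem h.vT (h.iT hp.1)))
    ((h.conj_v h.hf hp.2.1).trans (isConj_conj g _))
  rw [← conj_mul, h.gv hg hg', mul_assoc, mul_right_inj] at e
  have e3 : g * ι p * g⁻¹ = ι (s0 * l) := by
    rw [map_mul, h.is, ← e, ← mul_assoc, h.s2, one_mul]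
  refine ⟨_, tabQ l e1 e2 (fun k => hp.2.2.1 (h.inj ?_)) fun k => hp.2.2.2 (h.inj ?_), e3⟩
  · rw [k, map_one] at e3
    simpa using e3
  · rw [k, h.is, ← h.gs hg] at e3
    simpa [h.is] using e3

theorem gF {g : G} (hg : g ∈ S) {a1 b1 : L7} (ha : g * ι a0 * g⁻¹ = ι a1)
    (hb : g * ι b0 * g⁻¹ = ι b1) {l : L7} (hl : l * s0 = s0 * l) :
    g * ι l * g⁻¹ = ι (FD a1 b1 l) := by
  have hs : g * ι s0 * g⁻¹ = ι s0 := by rw [h.is, h.gs hg]
  rcases l7_D hl with rfl | rfl | rfl | rfl | rfl | rfl | rfl | rfl <;> unfold FD <;>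
    simp (disch := decide +kernel) only [if_pos, if_neg, map_one, map_mul, ← conj_mul,
      ha, hb, hs, mul_one, mul_inv_cancel]

theorem nD {g d : G} (hg : g ∈ S) (hd : d ∈ ι.range ⊓ C1 σ) : g * d * g⁻¹ ∈ ι.range ⊓ C1 σ := by
  by_cases hg' : g ∈ C1 v ⊓ C1 σ
  · exact h.norm_D hg' hd
  · obtain ⟨a1, pa, ha⟩ := h.gP hg hg' P0_a
    obtain ⟨b1, pb, hb⟩ := h.gP hg hg' P0_b
    obtain ⟨l, hl, rfl⟩ := h.mem_D.1 hd
    exact h.mem_D.2 ⟨_, tabD a1 pa b1 pb l, h.gF hg ha hb hl⟩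

theorem sD : σ ∈ ι.range ⊓ C1 σ := h.mem_D.2 ⟨s0, rfl, h.is.symm⟩

theorem cv {g : G} (hg : g ∈ S) : g * v * g⁻¹ * v ∈ ι.range ⊓ C1 σ := by
  by_cases hg' : g ∈ C1 v ⊓ C1 σ
  · rw [mem_C1.1 (mem_inf.1 hg').1, mul_inv_cancel_right, h.vv]; exact one_mem _
  · rw [h.gv hg hg', h.vs, mul_assoc, h.vv, mul_one]; exact h.sD

theorem cV {g u : G} (hg : g ∈ S) (hu : u ∈ V) : ⁅g, u⁆ ∈ ι.range ⊓ C1 σ := by
  rw [commutatorElement_def, inv_eq_of_mul_eq_one_right (h.sq u hu)]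
  by_cases e1 : u = 1
  · simp [e1]
  by_cases e2 : u = v
  · rw [e2]; exact h.cv hg
  obtain ⟨u', hu', l, hl, e⟩ := h.mem_T (h.nT hg (h.V_le hu))
  have hd := h.mem_D.2 ⟨l, hl, rfl⟩
  have k := h.nD (inv_mem hg) hd
  by_cases e3 : u' = 1
  · rw [← one_mul (ι l), ← e3, ← e, show g⁻¹ * (g * u * g⁻¹) * g⁻¹⁻¹ = u by group] at k
    obtain ⟨m, -, k⟩ := h.mem_D.1 k
    exact absurd (h.eq_one_of_eq hu k) e1
  by_cases e4 : u' = v
  · have k2 := mul_mem (h.norm_D h.vT (h.cv (inv_mem hg))) k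
    have e5 : u = g⁻¹ * (v * ι l) * g := by rw [← e4, ← e]; group
    rw [show v * (g⁻¹ * v * g⁻¹⁻¹ * v) * v⁻¹ * (g⁻¹ * ι l * g⁻¹⁻¹) = v * u by rw [e5]; group] at k2
    obtain ⟨m, -, k2⟩ := h.mem_D.1 k2
    refine absurd ?_ e2
    rw [← one_mul u, ← h.vv, mul_assoc, h.eq_one_of_eq (V.mul_mem h.hv hu) k2, mul_one]
  · have e5 := conj_sq (h.sq u hu) g
    rw [e] at e5
    obtain ⟨m, e6⟩ := h.outer h.hf hu' e3 e4 e5
    have : u = u' := h.fusion hu hu' ((isConj_conj g u).trans (by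
      rw [e, e6]; exact (isConj_conj _ _).symm))
    subst this
    rw [e]
    simpa [inv_eq_of_mul_eq_one_right (h.sq u hu)] using h.norm_D (h.V_le hu) hd

theorem cT {g t : G} (hg : g ∈ S) (ht : t ∈ C1 v ⊓ C1 σ) : ⁅g, t⁆ ∈ ι.range ⊓ C1 σ := by
  obtain ⟨u, hu, l, hl, rfl⟩ := h.mem_T ht
  have hd := h.mem_D.2 ⟨l, hl, rfl⟩
  have := mul_mem (h.cV hg hu) (h.norm_D (h.V_le hu) (mul_mem (h.nD hg hd) (inv_mem hd)))
  convert this using 1
  simp only [commutatorElement_def]; group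

theorem cS {s t : G} (hs : s ∈ S) (ht : t ∈ S) : ⁅s, t⁆ ∈ ι.range ⊓ C1 σ := by
  by_cases h1 : t ∈ C1 v ⊓ C1 σ
  · exact h.cT hs h1
  by_cases h2 : s ∈ C1 v ⊓ C1 σ
  · rw [← commutatorElement_inv]; exact inv_mem (h.cT ht h2)
  have := h.nD hs (h.cT hs (h.idx _ (inv_mem hs) t ht (by rwa [inv_mem_iff]) h1))
  convert this using 1
  simp only [commutatorElement_def]; group

theorem finA {e c : G} (he : e ∈ S) (he' : e ∉ C1 v ⊓ C1 σ) (ev : IsConj v e) (cv : IsConj v c)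
    (ha : e * ι a0 * e⁻¹ = ι (a0 * s0)) (hb : e * ι b0 * e⁻¹ = ι (b0 * s0)) {d : L7}
    (hd : d * s0 = s0 * d) (k : c = e * (v * ι d)) : False := by
  have sq : ∀ {y}, IsConj v y → y * y = 1 := fun hy => by
    obtain ⟨g, rfl⟩ := isConj_iff.1 hy
    exact conj_sq h.vv g
  have e1 := h.gv he he'
  have k1 : ∀ p, P0 p → IsConj σ (e * (v * ι p)) := fun p hp => by
    refine h.K1' h.hf ev (h.conj_v h.hf hp.2.1) ?_ fun k => he' (k ▸ mul_mem h.vT (h.iT hp.1))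
    rw [eq_comm, ← mul_inv_eq_iff_eq_mul, ← conj_mul, e1, h.gF he ha hb hp.1, tabP p hp, hp.1,
      map_mul, h.is, mul_assoc, ← mul_assoc σ, h.s2, one_mul]
  rcases tabA d hd with e2 | e2 | ⟨e2, e3⟩
  · have e3 : e * ι d * e⁻¹ = ι d := by
      rcases e2 with rfl | rfl
      · simp
      · rw [h.is, h.gs he]
    have e4 : ι d * ι d = 1 := by
      rcases e2 with rfl | rfl
      · simp
      · rw [h.is, h.s2]
    have e5 : c * c = σ := by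
      calc c * c = e * v * e⁻¹ * (e * ι d * e⁻¹) * (e * e) * (v * ι d) := by rw [k]; group
        _ = σ * (v * (ι d * v) * ι d) := by rw [e1, e3, sq ev, h.vs]; group
        _ = σ := by rw [← h.vc, ← mul_assoc v, h.vv, one_mul, e4, mul_one]
    exact h.s_ne V.one_mem (e5.symm.trans (sq cv))
  · exact h.v_ns (cv.trans (k ▸ k1 d e2).symm)
  · refine h.K2' h.hf cv (m := ι a0) ?_ (h.conj_s P0_a.2.1 P0_a.2.2.1) ?_
    · rw [eq_comm, ← mul_inv_eq_iff_eq_mul]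
      calc c * ι a0 * c⁻¹ = e * (v * ι (d * a0 * d⁻¹) * v⁻¹) * e⁻¹ := by
            rw [k, map_mul, map_mul, map_inv]; group
        _ = ι a0 := by
          rw [h.vc, mul_inv_cancel_right, e2, map_mul, ← conj_mul, ha, h.is, h.gs he, map_mul, h.is,
            mul_assoc, h.s2, mul_one]
    · have := k1 _ e3
      rwa [map_mul, ← mul_assoc, ← mul_assoc, mul_assoc e, ← k] at this

theorem fin {c c' : G} (hc : c ∈ S) (hc' : c ∉ C1 v ⊓ C1 σ) (cv : IsConj v c) (cv' : IsConj v c')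
    (k : v * (c * c') ∈ ι.range ⊓ C1 σ) : False := by
  have sq : ∀ {y}, IsConj v y → y * y = 1 := fun hy => by
    obtain ⟨g, rfl⟩ := isConj_iff.1 hy
    exact conj_sq h.vv g
  obtain ⟨d, hd, k⟩ := h.mem_D.1 k
  have k1 : c' = c * (v * ι d) := by
    rw [← k, ← mul_assoc v, h.vv, one_mul, ← mul_assoc, sq cv, one_mul]
  have dT := mul_mem h.vT (h.iT hd)
  obtain ⟨a1, pa, ha⟩ := h.gP hc hc' P0_a
  obtain ⟨b1, pb, hb⟩ := h.gP hc hc' P0_b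
  have i : ∀ y, c * (c * y * c⁻¹) * c⁻¹ = y := fun y => by
    calc _ = c * c * y * (c * c)⁻¹ := by group
      _ = y := by rw [sq cv]; group
  have t : ∀ p, c' * ι p * c'⁻¹ = c * ι (d * p * d⁻¹) * c⁻¹ := fun p => by
    calc _ = c * (v * ι (d * p * d⁻¹) * v⁻¹) * c⁻¹ := by rw [k1, map_mul, map_mul, map_inv]; group
      _ = _ := by rw [h.vc, mul_inv_cancel_right]
  have cD : ∀ p, p * s0 = s0 * p → d * p * d⁻¹ * s0 = s0 * (d * p * d⁻¹) := fun p hp =>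
    ((Commute.mul_left hd hp).mul_left (Commute.inv_left hd)).eq
  rcases tabB a1 pa b1 pb (h.inj (by rw [← h.gF hc ha hb pa.1, ← ha, i]))
    (h.inj (by rw [← h.gF hc ha hb pb.1, ← hb, i])) d hd (h.inj (by
      rw [map_mul, map_mul, ← h.gF hc ha hb hd, h.is, map_one, ← sq cv']
      calc _ = v * (v * σ) * (c * ι d * c⁻¹) * ι d := by rw [← mul_assoc v, h.vv, one_mul]
        _ = v * σ * (v * (c * ι d * c⁻¹)) * ι d := by nth_rw 1 [h.vs]; group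
        _ = c * v * c⁻¹ * (c * ι d * c⁻¹) * (c * c) * (v * ι d) := by
          rw [h.gv hc hc', sq cv, h.gF hc ha hb hd, h.vc]; group
        _ = _ := by rw [k1]; group)) with ⟨rfl, rfl⟩ | ⟨e1, e2⟩
  · exact h.finA hc hc' cv cv' ha hb hd k1
  · refine h.finA (e := c') (k1 ▸ mul_mem hc (h.le dT))
      (fun e => hc' ((mul_mem_cancel_right dT).1 (k1 ▸ e))) cv' cv
      (by rw [t, h.gF hc ha hb (cD _ P0_a.1), e1]) (by rw [t, h.gF hc ha hb (cD _ P0_b.1), e2])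
      (Commute.inv_left hd).eq ?_
    rw [k1, map_inv, mul_assoc, h.vc, mul_assoc, ← mul_assoc v, h.vv, one_mul, mul_inv_cancel,
      mul_one]

theorem exists_K : ∃ K, ι.range ⊓ C1 σ ≤ K ∧ v ∉ K ∧ ∀ m ∈ S, IsConj v m → v * m ∈ K := by
  have sq : ∀ {y}, IsConj v y → y * y = 1 := fun hy => by
    obtain ⟨g, rfl⟩ := isConj_iff.1 hy
    exact conj_sq h.vv g
  have nD : ∀ u ∈ V, u ∈ ι.range ⊓ C1 σ → u = 1 := fun u hu e => by
    obtain ⟨m, -, k⟩ := h.mem_D.1 e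
    exact h.eq_one_of_eq hu k
  have iT : ∀ m ∈ C1 v ⊓ C1 σ, IsConj v m → v * m ∈ ι.range ⊓ C1 σ := fun m hm e => by
    obtain ⟨l, e1, -, rfl⟩ := h.inT hm e
    exact h.mem_D.2 ⟨l, e1, by rw [← mul_assoc, h.vv, one_mul]⟩
  by_cases hX : ∀ c ∈ S, IsConj v c → c ∈ C1 v ⊓ C1 σ
  · exact ⟨_, le_rfl, fun e => h.v1 (nD v h.hv e), fun m hm e => iT m (hX m hm e) e⟩
  push Not at hX
  obtain ⟨c, hc, cv, hc'⟩ := hX
  have dec : ∀ m ∈ S, m ∉ C1 v ⊓ C1 σ → ∃ u ∈ V, u * (c * m) ∈ ι.range ⊓ C1 σ := fun m hm hm' => by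
    obtain ⟨u, hu, l, hl, e⟩ := h.mem_T (h.idx c hc m hm hc' hm')
    exact ⟨u, hu, h.mem_D.2 ⟨l, hl, by rw [e, ← mul_assoc, h.sq u hu, one_mul]⟩⟩
  obtain ⟨w, hw, wv, k⟩ : ∃ w ∈ V, w ≠ v ∧ ∀ m ∈ S, IsConj v m → m ∉ C1 v ⊓ C1 σ →
      c * m ∈ ι.range ⊓ C1 σ ∨ w * (c * m) ∈ ι.range ⊓ C1 σ := by
    by_cases k : ∀ m ∈ S, IsConj v m → m ∉ C1 v ⊓ C1 σ → c * m ∈ ι.range ⊓ C1 σ
    · exact ⟨1, V.one_mem, h.v1.symm, fun m hm e hm' => Or.inl (k m hm e hm')⟩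
    push Not at k
    obtain ⟨n, hn, nv, hn', k⟩ := k
    obtain ⟨w, hw, k1⟩ := dec n hn hn'
    have w1 : w ≠ 1 := by rintro rfl; exact k (by simpa using k1)
    have wv : w ≠ v := by rintro rfl; exact h.fin hc hc' cv nv k1
    refine ⟨w, hw, wv, fun m hm e hm' => ?_⟩
    obtain ⟨u, hu, k2⟩ := dec m hm hm'
    rcases h.cases h.hv hw h.v1 w1 wv.symm hu with rfl | rfl | rfl | rfl
    · left; simpa using k2
    · exact (h.fin hc hc' cv e k2).elim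
    · exact Or.inr k2
    · refine (h.fin hn hn' nv e ?_).elim
      have := mul_mem (h.norm_D h.vT (inv_mem k1)) k2
      convert this using 1
      rw [mul_inv_rev, mul_inv_rev, inv_eq_of_mul_eq_one_right (sq nv)]
      group
  obtain ⟨K0, a1, a2, a3, a4⟩ := ext2 (h.D_le.trans h.le) (fun s hs t ht => h.cS hs ht)
    (h.le (h.V_le hw)) (by rw [h.sq w hw]; exact one_mem _)
  have K0T : K0 ≤ C1 v ⊓ C1 σ := fun y hy => by
    rcases a4 y hy with e | e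
    exacts [h.D_le e, (mul_mem_cancel_left (h.V_le hw)).1 (h.D_le e)]
  obtain ⟨K, b1, -, b3, b4⟩ := ext2 a2 (fun s hs t ht => a1 (h.cS hs ht))
    (mul_mem (h.le h.vT) hc) (a1 (by
      have : v * c * (v * c) = σ := by
        calc _ = v * (c * v * c⁻¹) * (c * c) := by group
          _ = σ := by rw [h.gv hc hc', sq cv, ← mul_assoc, h.vv, one_mul, mul_one]
      rw [this]; exact h.sD))
  refine ⟨K, a1.trans b1, fun e => ?_, fun m hm e => ?_⟩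
  · rcases b4 v e with e | e
    · rcases a4 v e with e | e
      · exact h.v1 (nD v h.hv e)
      · exact wv (by
          rw [← mul_one w, ← h.vv, ← mul_assoc, nD _ (V.mul_mem hw h.hv) e, one_mul])
    · exact hc' ((mul_mem_cancel_left h.vT).1 ((mul_mem_cancel_right h.vT).1 (K0T e)))
  · by_cases hm' : m ∈ C1 v ⊓ C1 σ
    · exact b1 (a1 (iT m hm' e))
    · have : c * m ∈ K0 := by
        rcases k m hm e hm' with e | e
        exacts [a1 e, (mul_mem_cancel_left a3).1 (a1 e)]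
      have := mul_mem b3 (b1 this)
      rwa [mul_assoc, ← mul_assoc c, sq cv, one_mul] at this

theorem false : False := by
  obtain ⟨K, h1, h2, h3⟩ := h.exists_K
  have cj : ∀ a : G, IsConj v (a⁻¹ * v * a) := fun a => isConj_iff.2 ⟨a⁻¹, by rw [inv_inv]⟩
  obtain ⟨a, e1, e2, -⟩ := thompson_transfer_subgroup (T := K) h.odd
    (fun s hs t ht => h1 (h.cS hs ht))
    (fun s hs => by
      obtain ⟨k, hk⟩ := h.two ⟨s, hs⟩
      exact ⟨k, by rw [show s ^ 2 ^ k = 1 from congrArg Subtype.val hk]; exact one_mem _⟩) v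
    ⟨1, ord_two h.vv h.v1⟩
    (fun m hm m1 a _ => by
      rw [ord_two h.vv h.v1] at hm
      obtain rfl : m = 2 := ((Nat.dvd_prime Nat.prime_two).1 hm).resolve_left m1
      rw [pow_two, h.vv]; simp)
    (fun a b ha hb _ _ => by
      have := mul_mem (inv_mem (h3 _ ha (cj a))) (h3 _ hb (cj b))
      convert this using 1
      rw [mul_inv_rev, inv_eq_of_mul_eq_one_right (a := a⁻¹ * v * a)
        (by simpa using conj_sq h.vv a⁻¹)]
      group)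
    (mem_sup_left (h.perf ▸ mem_top v)) ⊥ IsPGroup.of_bot (by simp)
  exact h2 ((mul_mem_cancel_right e2).1 (h3 _ e1 (cj a)))

end CS

theorem CP.false_of_faith {G : Type*} [Group G] [Finite G] {x σ v : G} {V : Subgroup G}
    {ι : L7 →* G} (h : CP x σ V v ι)
    (hf : ∀ u ∈ V, (∀ l, u * ι l = ι l * u) → u = 1 ∨ u = v) : False :=
  (h.exists_CS hf).elim fun _ k => k.false

end Cfsg.Lib.Apw
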