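import Cfsg.Agent.Apw.Defs
import Cfsg.Agent.Trans.SylowIn

/-! The centraliser `2 × L₂(7)` or `2 × PGL₂(7)`: classes of involutions and the Sylow subgroup. -/

set_option autoImplicit false
set_option linter.unusedSectionVars false

namespace Cfsg.Lib.Apw

open Subgroup Cfsg.Lib.Solv Cfsg.Lib.Known Cfsg.Lib.Known.G168

variable {G : Type*} [Group G]

/-- In a perfect group the number of conjugates of an involution is congruent modulo four to the
number of those that commute with it. -/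
theorem index_mod_four [Finite G] (hG : _root_.commutator G = ⊤) {v : G} (hv : v * v = 1) :
    (C1 v).index % 4 = {u | IsConj v u ∧ v * u = u * v}.ncard % 4 := by
  classical
  have := Fintype.ofFinite (G ⧸ C1 v)
  let ρ := MulAction.toPermHom G (G ⧸ C1 v)
  have k : ∀ a b : G, a⁻¹ * b ∈ C1 v ↔ a * v * a⁻¹ = b * v * b⁻¹ := fun a b => by
    rw [mem_C1]
    constructor <;> intro h
    · calc a * v * a⁻¹ = a * (v * (a⁻¹ * b)) * b⁻¹ := by group
        _ = _ := by rw [← h]; group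
    · calc a⁻¹ * b * v = a⁻¹ * (b * v * b⁻¹) * b := by group
        _ = _ := by rw [← h]; group
  let e : G ⧸ C1 v → G := Quotient.lift (fun g => g * v * g⁻¹) fun a b h =>
    (k a b).1 (QuotientGroup.leftRel_apply.1 h)
  have k2 : ∀ a : G, (a : G ⧸ C1 v) ∈ Function.fixedPoints (ρ v) ↔
      v * (a * v * a⁻¹) = a * v * a⁻¹ * v := fun a => by
    show ((v * a : G) : G ⧸ C1 v) = a ↔ _
    rw [QuotientGroup.eq, k, ← mul_inv_eq_iff_eq_mul (a := v * (a * v * a⁻¹))]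
    simp only [mul_inv_rev, mul_assoc]
  have h0 : Fintype.card (Function.fixedPoints (ρ v)) =
      {u | IsConj v u ∧ v * u = u * v}.ncard := by
    rw [← Nat.card_eq_fintype_card, Nat.card_coe_set_eq]
    refine Set.ncard_congr (fun q _ => e q) ?_ ?_ ?_
    · intro q hq
      obtain ⟨a, rfl⟩ := QuotientGroup.mk_surjective q
      exact ⟨isConj_conj a v, (k2 a).1 hq⟩
    · intro q r _ _ h
      obtain ⟨a, rfl⟩ := QuotientGroup.mk_surjective q
      obtain ⟨b, rfl⟩ := QuotientGroup.mk_surjective r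
      exact QuotientGroup.eq.2 ((k a b).2 h)
    · rintro u ⟨h1, h2⟩
      obtain ⟨a, rfl⟩ := isConj_iff.1 h1
      exact ⟨a, (k2 a).2 h2, rfl⟩
  have h2 : ρ v ^ 2 = 1 := by rw [pow_two, ← map_mul, hv, map_one]
  have h3 := Equiv.Perm.sign_of_pow_two_eq_one h2
  have h4 : (Equiv.Perm.sign.comp ρ) v = 1 :=
    Abelianization.commutator_subset_ker (Equiv.Perm.sign.comp ρ) (hG ▸ Subgroup.mem_top v)
  have h5 := (neg_one_pow_eq_one_iff_even (by decide)).1 (h3.symm.trans h4)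
  have : Fact (Nat.Prime 2) := ⟨Nat.prime_two⟩
  have h6 := Equiv.Perm.card_fixedPoints_modEq (p := 2) (n := 1)
    (f := (⇑(ρ v) : G ⧸ C1 v → G ⧸ C1 v))
    (funext fun x => congrArg (fun σ : Equiv.Perm (G ⧸ C1 v) => σ x) h2)
  have h7 : Fintype.card (Function.fixedPoints (ρ v)) ≤ Fintype.card (G ⧸ C1 v) :=
    Fintype.card_subtype_le _
  rw [index_eq_card, Nat.card_eq_fintype_card, ← h0]
  rw [Nat.ModEq] at h6
  rw [Nat.even_iff] at h5
  change _ = Fintype.card (Function.fixedPoints (ρ v)) % 2 at h6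
  omega

/-- The non-central involutions of the centraliser of `s0`. -/
def P0 (l : L7) : Prop := l * s0 = s0 * l ∧ l * l = 1 ∧ l ≠ 1 ∧ l ≠ s0

instance : DecidablePred P0 := fun l => by unfold P0; infer_instance

theorem P0_a : P0 a0 := by decide +kernel
theorem P0_b : P0 b0 := by decide +kernel
theorem s0_sq : s0 * s0 = 1 := by decide +kernel
theorem s0_ne : s0 ≠ 1 := by decide +kernel
theorem ab_sq : a0 * b0 * (a0 * b0) = s0 := by decide +kernel

theorem l7_outer {l : L7} (h : al l * l = 1) : ∃ k, al k * k⁻¹ = l :=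
  (by decide +kernel : ∀ l : L7, al l * l = 1 → ∃ k, al k * k⁻¹ = l) l h

theorem l7_D {l : L7} (h : l * s0 = s0 * l) : l = 1 ∨ l = s0 ∨ l = a0 ∨ l = a0 * s0 ∨ l = b0 ∨
    l = b0 * s0 ∨ l = a0 * b0 ∨ l = b0 * a0 :=
  (by decide +kernel : ∀ l : L7, l * s0 = s0 * l → l = 1 ∨ l = s0 ∨ l = a0 ∨ l = a0 * s0 ∨ l = b0 ∨
    l = b0 * s0 ∨ l = a0 * b0 ∨ l = b0 * a0) l h

theorem l7_four {l : L7} (h : l * s0 = s0 * l) : l ^ 4 = 1 :=
  (by decide +kernel : ∀ l : L7, l * s0 = s0 * l → l ^ 4 = 1) l h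

theorem l7_odd {l : L7} (h : l * s0 ≠ s0 * l) : ∃ d, d * s0 = s0 * d ∧ (d * l) ^ 21 = 1 :=
  (by decide +kernel : ∀ l : L7, l * s0 ≠ s0 * l → ∃ d, d * s0 = s0 * d ∧ (d * l) ^ 21 = 1) l h

theorem l7_Z {l : L7} (h1 : l * a0 = a0 * l) (h2 : l * b0 = b0 * l) (h3 : l ≠ 1) : l = s0 :=
  (by decide +kernel : ∀ l : L7, l * a0 = a0 * l → l * b0 = b0 * l → l ≠ 1 → l = s0) l h1 h2 h3

namespace CP

variable {x σ v : G} {V : Subgroup G} {ι : L7 →* G} (h : CP x σ V v ι)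
include h

theorem vv : v * v = 1 := h.sq v h.hv

theorem vs : v * σ = σ * v := (h.sv v h.hv).symm

theorem eq_one_of_eq {u : G} (hu : u ∈ V) {k : L7} (e : u = ι k) : u = 1 := by
  rw [e, l7_cent (l := k) (h.inj (by rw [map_mul, map_mul, h.ix, ← e, h.comm u hu]))
    (h.inj (by rw [map_mul, ← e, h.sq u hu, map_one])), map_one]

theorem sq_mem {u : G} (hu : u ∈ V) {l l' : L7} (e : u * ι l * u⁻¹ = ι l') :
    u * ι l * (u * ι l) = ι (l' * l) := by
  rw [map_mul, ← e, inv_eq_of_mul_eq_one_right (h.sq u hu)]; group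

theorem v_ns : ¬ IsConj v σ := fun e => by
  obtain ⟨g, e⟩ := isConj_iff.1 e.symm
  have e1 : g * ι (a0 * b0) * g⁻¹ * (g * ι (a0 * b0) * g⁻¹) = v := by
    rw [conj_mul, ← map_mul, ab_sq, h.is, e]
  generalize g * ι (a0 * b0) * g⁻¹ = r at e1
  obtain ⟨u, hu, l, rfl⟩ := h.cover r (by rw [← e1]; group)
  obtain ⟨l', e2⟩ := h.norm u hu l
  exact h.v1 (h.eq_one_of_eq h.hv (e1.symm.trans (h.sq_mem hu e2)))

theorem conj_s {l : L7} (h2 : l * l = 1) (h1 : l ≠ 1) : IsConj σ (ι l) := by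
  obtain ⟨g, rfl⟩ := l7_sq h2 h1
  rw [map_mul, map_mul, map_inv, h.is]; exact isConj_conj _ _

theorem conj_vs {l : L7} (h2 : l * l = 1) (h1 : l ≠ 1) : IsConj (v * σ) (v * ι l) := by
  obtain ⟨g, rfl⟩ := l7_sq h2 h1
  refine isConj_iff.2 ⟨ι g, ?_⟩
  rw [map_mul, map_mul, map_inv, h.is, ← mul_assoc, ← h.vc]; group

variable (hf : ∀ u ∈ V, (∀ l, u * ι l = ι l * u) → u = 1 ∨ u = v)
include hf

theorem act {u : G} (hu : u ∈ V) (h1 : u ≠ 1) (h2 : u ≠ v) (l : L7) :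
    u * ι l * u⁻¹ = ι (al l) := by
  choose f hf' using h.norm u hu
  let ψ : L7 →* L7 := MonoidHom.mk' f fun a b => h.inj (by
    rw [map_mul, ← hf', ← hf', ← hf', map_mul, conj_mul])
  have i : Function.Injective ψ := fun a b e => h.inj (by
    have : ι (f a) = ι (f b) := congrArg ι e
    rw [← hf', ← hf'] at this
    simpa using this)
  rcases l7_aut ψ i (h.inj (by
      show ι (f x0) = _
      rw [← hf', h.ix, ← h.comm u hu]; group)) (h.inj (by
      show ι (f s0) = _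
      rw [← hf', h.is, ← h.sv u hu]; group)) with e | e
  · refine absurd (hf u hu fun l => ?_) (by tauto)
    have : f l = l := e l
    rw [← mul_inv_eq_iff_eq_mul, hf', this]
  · rw [hf']; exact congrArg ι (e l)

theorem outer {u : G} (hu : u ∈ V) (h1 : u ≠ 1) (h2 : u ≠ v) {l : L7}
    (e : u * ι l * (u * ι l) = 1) : ∃ k, u * ι l = ι k * u * (ι k)⁻¹ := by
  rw [h.sq_mem hu (h.act hf hu h1 h2 l), map_eq_one_iff _ h.inj] at e
  obtain ⟨k, rfl⟩ := l7_outer e
  refine ⟨k, ?_⟩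
  rw [map_mul, map_inv, ← h.act hf hu h1 h2, ← mul_assoc, ← mul_assoc, ← mul_assoc, h.sq u hu,
    one_mul, inv_eq_of_mul_eq_one_right (h.sq u hu)]

theorem inv_cases {m : G} (hm : m * v = v * m) (h2 : m * m = 1) :
    (∃ l, l * l = 1 ∧ (m = ι l ∨ m = v * ι l)) ∨
      ∃ u ∈ V, u ≠ 1 ∧ u ≠ v ∧ ∃ k, m = ι k * u * (ι k)⁻¹ := by
  obtain ⟨u, hu, l, rfl⟩ := h.cover m hm
  by_cases e1 : u = 1
  · subst e1
    rw [one_mul, ← map_mul, map_eq_one_iff _ h.inj] at h2
    exact Or.inl ⟨l, h2, Or.inl (one_mul _)⟩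
  by_cases e2 : u = v
  · subst e2
    rw [h.sq_mem hu (l' := l) (by rw [h.vc]; group), map_eq_one_iff _ h.inj] at h2
    exact Or.inl ⟨l, h2, Or.inr rfl⟩
  · exact Or.inr ⟨u, hu, e1, e2, h.outer hf hu e1 e2 h2⟩

variable [Finite G]

theorem v_vs : IsConj v (v * σ) := by
  obtain ⟨u, hu, e⟩ := h.invl v (ord_two h.vv h.v1)
  by_cases e1 : u = 1
  · exact absurd (by simpa [e1] using e) h.v_ns
  by_cases e2 : u = v
  · rwa [e2, ← h.vs] at e
  · have e3 := h.sv_sq hu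
    rw [h.sv u hu, ← h.is] at e e3
    obtain ⟨k, e4⟩ := h.outer hf hu e1 e2 e3
    rw [e4] at e
    exact absurd (h.fusion h.hv hu (e.trans (isConj_conj _ _).symm)).symm e2

theorem conj_v {l : L7} (h2 : l * l = 1) : IsConj v (v * ι l) := by
  by_cases h1 : l = 1
  · rw [h1, map_one, mul_one]
  · exact (h.v_vs hf).trans (h.conj_vs h2 h1)

theorem K1 {m : G} (hm : m * v = v * m) (e : IsConj v m) : ∃ l, l * l = 1 ∧ m = v * ι l := by
  have h2 : m * m = 1 := by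
    obtain ⟨g, rfl⟩ := isConj_iff.1 e
    exact conj_sq h.vv g
  rcases h.inv_cases hf hm h2 with ⟨l, h3, rfl | rfl⟩ | ⟨u, hu, -, e2, k, rfl⟩
  · by_cases h1 : l = 1
    · exact absurd (by simpa [h1] using e) h.v1
    · exact absurd (e.trans (h.conj_s h3 h1).symm) h.v_ns
  · exact ⟨l, h3, rfl⟩
  · exact absurd (h.fusion h.hv hu (e.trans (isConj_conj _ _).symm)).symm e2

theorem K1' {c m : G} (hc : IsConj v c) (e : IsConj v m) (hm : m * c = c * m) (hne : m ≠ c) :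
    IsConj σ (c * m) := by
  obtain ⟨g, rfl⟩ := isConj_iff.1 hc
  obtain ⟨l, h2, e1⟩ := h.K1 hf (m := g⁻¹ * m * g⁻¹⁻¹)
    (by simpa [mul_assoc] using conj_comm g⁻¹ hm) (e.trans (isConj_conj _ _))
  have e2 : m = g * (v * ι l) * g⁻¹ := by rw [← e1]; group
  have h1 : l ≠ 1 := by rintro rfl; exact hne (by simpa using e2)
  rw [e2, conj_mul, ← mul_assoc v, h.vv, one_mul]
  exact (h.conj_s h2 h1).trans (isConj_conj _ _)

theorem K2 {m : G} (hm : m * v = v * m) (e : IsConj σ m) : ¬ IsConj σ (v * m) := fun e' => by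
  have h2 : m * m = 1 := by
    obtain ⟨g, rfl⟩ := isConj_iff.1 e
    exact conj_sq h.s2 g
  rcases h.inv_cases hf hm h2 with ⟨l, h3, rfl | rfl⟩ | ⟨u, hu, -, -, k, rfl⟩
  · exact h.v_ns ((h.conj_v hf h3).trans e'.symm)
  · exact h.v_ns ((h.conj_v hf h3).trans e.symm)
  · have e1 : v * (ι k * u * (ι k)⁻¹) = ι k * (v * u) * (ι k)⁻¹ := by
      rw [← mul_assoc, ← mul_assoc, h.vc]; group
    rw [e1] at e'
    have := h.fusion hu (V.mul_mem h.hv hu) ((isConj_conj _ _).trans (e.symm.trans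
      (e'.trans (isConj_conj _ _).symm)))
    exact h.v1 (by simpa using this)

theorem K2' {c m : G} (hc : IsConj v c) (hm : m * c = c * m) (e : IsConj σ m) :
    ¬ IsConj σ (c * m) := fun e' => by
  obtain ⟨g, rfl⟩ := isConj_iff.1 hc
  refine h.K2 hf (m := g⁻¹ * m * g⁻¹⁻¹) (by simpa [mul_assoc] using conj_comm g⁻¹ hm)
    (e.trans (isConj_conj _ _)) (e'.trans (isConj_iff.2 ⟨g⁻¹, by group⟩))

theorem index_C : (C1 v).index % 4 = 2 := by
  rw [index_mod_four h.perf h.vv]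
  have e : {u | IsConj v u ∧ v * u = u * v} = (fun l => v * ι l) '' {l | l * l = 1} := by
    ext u
    constructor
    · rintro ⟨h1, h2⟩
      obtain ⟨l, h3, rfl⟩ := h.K1 hf h2.symm h1
      exact ⟨l, h3, rfl⟩
    · rintro ⟨l, h3, rfl⟩
      exact ⟨h.conj_v hf h3, by rw [mul_assoc, ← h.vc]⟩
  rw [e, Set.ncard_image_of_injective _ fun a b e => h.inj (mul_left_cancel e),
    ← Nat.card_coe_set_eq]
  have := GTab.card_subtype_of_equiv (t := tab) (Equiv.refl _) (fun l : L7 => l * l = 1)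
    (fun l : L7 => l * l = 1) fun _ => Iff.rfl
  have h22 : GTab.cnt (t := tab) (fun l : L7 => l * l = 1) = 22 := by decide +kernel
  change Nat.card {l : L7 // l * l = 1} % 4 = 2
  rw [this, h22]

end CP

end Cfsg.Lib.Apw
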